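import Cfsg.Agent.Lib.F2MatGroup

/-!
# Depth-first enumeration of a conjugacy class by packed matrices over `F_2` (helper111, S5580)

A program is a list of numbers: `0` drops the top of the stack, `k + 1` pushes `c_k⁻¹ * top * c_k`.
`vis C prog st` is the list of the pushed elements (in a group), `dfs` evaluates the same program on packed matrices
and tests every pushed matrix.
-/

set_option autoImplicit false

namespace Cfsg.Agent.H111.JM.Eng

open Cfsg.Agent.Lib Cfsg.Agent.Lib.F2Mat Cfsg.Agent.Lib.F2MatGroup

/-- head of a list of numbers, by recursion -/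
def hd (d : ℕ) (L : List ℕ) : ℕ := List.rec d (fun a _ _ => a) L

/-- tail of a list of numbers, by recursion -/
def tl (L : List ℕ) : List ℕ := List.rec [] (fun _ l _ => l) L

theorem hd_nil (d : ℕ) : hd d [] = d := rfl
theorem hd_cons (d a : ℕ) (L : List ℕ) : hd d (a :: L) = a := rfl
theorem tl_nil : tl [] = [] := rfl
theorem tl_cons (a : ℕ) (L : List ℕ) : tl (a :: L) = L := rfl

/-- `c_k⁻¹ * M * c_k` -/
def cjc (n : ℕ) (C Ci : List ℕ) (k M : ℕ) : ℕ :=
  F2Mat.mul n (F2Mat.mul n (get (F2Mat.one n) Ci k) M) (get (F2Mat.one n) C k)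

/-- the depth-first search with a test -/
def dfs (n : ℕ) (C Ci : List ℕ) (test : ℕ → Bool) (prog : List ℕ) : List ℕ → Bool :=
  List.rec (motive := fun _ => List ℕ → Bool) (fun _ => true)
    (fun i _ ih stack => Nat.rec (motive := fun _ => Bool) (ih (tl stack))
      (fun k _ => force (cjc n C Ci k (hd (F2Mat.one n) stack)) fun M =>
        cond (test M) (ih (M :: stack)) false) i) prog

theorem dfs_nil (n : ℕ) (C Ci : List ℕ) (test : ℕ → Bool) (st : List ℕ) : dfs n C Ci test [] st = true := rfl

theorem dfs_zero (n : ℕ) (C Ci : List ℕ) (test : ℕ → Bool) (w st : List ℕ) :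
    dfs n C Ci test (0 :: w) st = dfs n C Ci test w (tl st) := rfl

theorem dfs_succ (n : ℕ) (C Ci : List ℕ) (test : ℕ → Bool) (k : ℕ) (w st : List ℕ) :
    dfs n C Ci test ((k + 1) :: w) st =
      cond (test (cjc n C Ci k (hd (F2Mat.one n) st)))
        (dfs n C Ci test w (cjc n C Ci k (hd (F2Mat.one n) st) :: st)) false :=
  force_eq (cjc n C Ci k (hd (F2Mat.one n) st)) fun M => cond (test M) (dfs n C Ci test w (M :: st)) false

/-- the visited elements -/
def vis {G : Type*} [Group G] (C : List G) : List ℕ → List G → List G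
  | [], _ => []
  | 0 :: w, st => vis C w st.tail
  | (k + 1) :: w, st => ((getG C k)⁻¹ * getG st 0 * getG C k) ::
      vis C w (((getG C k)⁻¹ * getG st 0 * getG C k) :: st)

theorem vis_nil {G : Type*} [Group G] (C : List G) (st : List G) : vis C [] st = [] := rfl
theorem vis_zero {G : Type*} [Group G] (C : List G) (w : List ℕ) (st : List G) :
    vis C (0 :: w) st = vis C w st.tail := rfl
theorem vis_succ {G : Type*} [Group G] (C : List G) (k : ℕ) (w : List ℕ) (st : List G) :
    vis C ((k + 1) :: w) st = ((getG C k)⁻¹ * getG st 0 * getG C k) ::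
      vis C w (((getG C k)⁻¹ * getG st 0 * getG C k) :: st) := rfl

/-- an invariant of the visited elements -/
theorem vis_mem {G : Type*} [Group G] {C : List G} {P : G → Prop} (h1 : P 1)
    (hP : ∀ c ∈ C, ∀ g, P g → P (c⁻¹ * g * c)) {w : List ℕ} {st : List G} (hst : ∀ g ∈ st, P g) :
    ∀ g ∈ vis C w st, P g := by
  have hget : ∀ st : List G, (∀ g ∈ st, P g) → P (getG st 0) := by
    intro st hst
    rcases st with _ | ⟨a, st⟩
    · exact h1
    · exact hst a (List.mem_cons_self)
  have hC : ∀ k g, P g → P ((getG C k)⁻¹ * g * getG C k) := by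
    intro k g hg
    by_cases hk : k < C.length
    · exact hP _ (by unfold getG; rw [List.getD_eq_getElem _ _ hk]; exact List.getElem_mem _) g hg
    · have : getG C k = 1 := by
        unfold getG
        rw [List.getD_eq_default _ _ (by omega)]
      rw [this, inv_one, one_mul, mul_one]
      exact hg
  induction w generalizing st with
  | nil => intro g hg; rw [vis_nil] at hg; exact absurd hg List.not_mem_nil
  | cons i w ih =>
    rcases i with _ | k
    · rw [vis_zero]
      exact ih fun g hg => hst g (List.mem_of_mem_tail hg)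
    · rw [vis_succ]
      have h2 := hC k _ (hget st hst)
      intro g hg
      rcases List.mem_cons.1 hg with rfl | hg
      · exact h2
      · refine ih (fun g hg => ?_) g hg
        rcases List.mem_cons.1 hg with rfl | hg
        · exact h2
        · exact hst g hg

variable {n : ℕ}

theorem codes_cjc {C : List (GL (Fin n) (ZMod 2))} {LC LCi : List ℕ} (hC : List.Forall₂ (Codes n) C LC)
    (hCi : List.Forall₂ (Codes n) (C.map fun g => g⁻¹) LCi) (k : ℕ) {g : GL (Fin n) (ZMod 2)} {M : ℕ}
    (hg : Codes n g M) : Codes n ((getG C k)⁻¹ * g * getG C k) (cjc n LC LCi k M) := by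
  have h1 := codes_get hC k
  have h2 := codes_get hCi k
  have h3 : getG (C.map fun g => g⁻¹) k = (getG C k)⁻¹ := by
    clear h1 h2 hCi
    induction hC generalizing k with
    | nil => simp [getG]
    | cons _ _ ih =>
      rcases k with _ | k
      · rfl
      · exact ih k
  rw [h3] at h2
  exact (h2.mul hg).mul h1

theorem codes_hd {st : List (GL (Fin n) (ZMod 2))} {LS : List ℕ} (h : List.Forall₂ (Codes n) st LS) :
    Codes n (getG st 0) (hd (F2Mat.one n) LS) := by
  cases h with
  | nil => exact Codes.one n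
  | cons h1 _ => exact h1

theorem forall_tl {st : List (GL (Fin n) (ZMod 2))} {LS : List ℕ} (h : List.Forall₂ (Codes n) st LS) :
    List.Forall₂ (Codes n) st.tail (tl LS) := by
  cases h with
  | nil => exact .nil
  | cons _ h2 => exact h2

/-- **Soundness of the search.** -/
theorem dfs_sound {C : List (GL (Fin n) (ZMod 2))} {LC LCi : List ℕ} (hC : List.Forall₂ (Codes n) C LC)
    (hCi : List.Forall₂ (Codes n) (C.map fun g => g⁻¹) LCi) {test : ℕ → Bool} {w : List ℕ}
    {st : List (GL (Fin n) (ZMod 2))} {LS : List ℕ} (hS : List.Forall₂ (Codes n) st LS)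
    (h : dfs n LC LCi test w LS = true) : ∀ g ∈ vis C w st, ∃ M, Codes n g M ∧ test M = true := by
  induction w generalizing st LS with
  | nil => intro g hg; rw [vis_nil] at hg; exact absurd hg List.not_mem_nil
  | cons i w ih =>
    rcases i with _ | k
    · rw [dfs_zero] at h
      rw [vis_zero]
      exact ih (forall_tl hS) h
    · rw [dfs_succ] at h
      rw [vis_succ]
      have h1 := codes_cjc hC hCi k (codes_hd hS)
      rcases ht : test (cjc n LC LCi k (hd (F2Mat.one n) LS)) with _ | _
      · rw [ht] at h; exact absurd h Bool.false_ne_true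
      · rw [ht] at h
        intro g hg
        rcases List.mem_cons.1 hg with rfl | hg
        · exact ⟨_, h1, ht⟩
        · exact ih (.cons h1 hS) h g hg

/-- the search with a list of data: `test a M` is required for the visited matrix `M` and its datum `a` -/
def dfsD (n : ℕ) (C Ci : List ℕ) (test : ℕ → ℕ → Bool) (prog : List ℕ) : List ℕ → List ℕ → Bool :=
  List.rec (motive := fun _ => List ℕ → List ℕ → Bool)
    (fun keys _ => List.rec true (fun _ _ _ => false) keys)
    (fun i _ ih keys stack => Nat.rec (motive := fun _ => Bool) (ih keys (tl stack))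
      (fun k _ => force (cjc n C Ci k (hd (F2Mat.one n) stack)) fun M =>
        List.rec false (fun a keys' _ => cond (test a M) (ih keys' (M :: stack)) false) keys) i) prog

theorem dfsD_zero (n : ℕ) (C Ci : List ℕ) (test : ℕ → ℕ → Bool) (w keys st : List ℕ) :
    dfsD n C Ci test (0 :: w) keys st = dfsD n C Ci test w keys (tl st) := rfl

theorem dfsD_succ_nil (n : ℕ) (C Ci : List ℕ) (test : ℕ → ℕ → Bool) (k : ℕ) (w st : List ℕ) :
    dfsD n C Ci test ((k + 1) :: w) [] st = false :=
  force_eq (cjc n C Ci k (hd (F2Mat.one n) st)) fun _ => false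

theorem dfsD_succ_cons (n : ℕ) (C Ci : List ℕ) (test : ℕ → ℕ → Bool) (k : ℕ) (w : List ℕ) (a : ℕ) (keys st : List ℕ) :
    dfsD n C Ci test ((k + 1) :: w) (a :: keys) st =
      cond (test a (cjc n C Ci k (hd (F2Mat.one n) st)))
        (dfsD n C Ci test w keys (cjc n C Ci k (hd (F2Mat.one n) st) :: st)) false :=
  force_eq (cjc n C Ci k (hd (F2Mat.one n) st)) fun M =>
        cond (test a M) (dfsD n C Ci test w keys (M :: st)) false

/-- **Soundness of the search with data.** -/
theorem dfsD_sound {C : List (GL (Fin n) (ZMod 2))} {LC LCi : List ℕ} (hC : List.Forall₂ (Codes n) C LC)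
    (hCi : List.Forall₂ (Codes n) (C.map fun g => g⁻¹) LCi) {test : ℕ → ℕ → Bool} {w keys : List ℕ}
    {st : List (GL (Fin n) (ZMod 2))} {LS : List ℕ} (hS : List.Forall₂ (Codes n) st LS)
    (h : dfsD n LC LCi test w keys LS = true) :
    List.Forall₂ (fun g a => ∃ M, Codes n g M ∧ test a M = true) (vis C w st) keys := by
  induction w generalizing st LS keys with
  | nil =>
    rcases keys with _ | ⟨a, keys⟩
    · exact .nil
    · exact absurd h Bool.false_ne_true
  | cons i w ih =>
    rcases i with _ | k
    · rw [dfsD_zero] at h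
      rw [vis_zero]
      exact ih (forall_tl hS) h
    · rcases keys with _ | ⟨a, keys⟩
      · rw [dfsD_succ_nil] at h
        exact absurd h Bool.false_ne_true
      · rw [dfsD_succ_cons] at h
        rw [vis_succ]
        have h1 := codes_cjc hC hCi k (codes_hd hS)
        rcases ht : test a (cjc n LC LCi k (hd (F2Mat.one n) LS)) with _ | _
        · rw [ht] at h; exact absurd h Bool.false_ne_true
        · rw [ht] at h
          exact .cons ⟨_, h1, ht⟩ (ih (.cons h1 hS) h)

/-! ### Keys -/

/-- the key of a packed matrix: `w` bits from the position `o` -/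
def key (o w M : ℕ) : ℕ := Nat.mod (Nat.shiftRight M o) (Nat.pow 2 w)

/-- `g` has key `a` -/
def HasKey (n o w : ℕ) (g : GL (Fin n) (ZMod 2)) (a : ℕ) : Prop := ∃ M, Codes n g M ∧ key o w M = a

theorem testBit_key {o w M j : ℕ} (hj : j < w) : (key o w M).testBit j = M.testBit (o + j) := by
  have h : key o w M = (M >>> o) % 2 ^ w := rfl
  rw [h, Nat.testBit_mod_two_pow, Nat.testBit_shiftRight, decide_eq_true hj, Bool.true_and]

theorem key_lt (o w M : ℕ) : key o w M < 2 ^ w := Nat.mod_lt _ (Nat.two_pow_pos w)

theorem key_unique {o w : ℕ} (hn : o + w ≤ n * n) {M M' : ℕ} (h : toMat n M = toMat n M') :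
    key o w M = key o w M' := by
  apply Nat.eq_of_testBit_eq
  intro j
  rcases Nat.lt_or_ge j w with hj | hj
  · rw [testBit_key hj, testBit_key hj]
    have h0 : 0 < n := by
      rcases Nat.eq_zero_or_pos n with rfl | h
      · omega
      · exact h
    have h1 : (o + j) / n < n := Nat.div_lt_of_lt_mul (by omega)
    have h2 : (o + j) % n < n := Nat.mod_lt _ h0
    have h3 := congrFun (congrFun h ⟨_, h1⟩) ⟨_, h2⟩
    rw [toMat_apply, toMat_apply] at h3
    have h4 : n * ((o + j) / n) + (o + j) % n = o + j := Nat.div_add_mod _ _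
    have h5 := bz_inj h3
    simp only [h4] at h5
    exact h5
  · rw [Nat.testBit_lt_two_pow (lt_of_lt_of_le (key_lt o w M) (Nat.pow_le_pow_right (by norm_num) hj)),
      Nat.testBit_lt_two_pow (lt_of_lt_of_le (key_lt o w M') (Nat.pow_le_pow_right (by norm_num) hj))]

theorem HasKey.unique {o w : ℕ} (hn : o + w ≤ n * n) {g : GL (Fin n) (ZMod 2)} {a b : ℕ}
    (ha : HasKey n o w g a) (hb : HasKey n o w g b) : a = b := by
  obtain ⟨M, h1, rfl⟩ := ha
  obtain ⟨M', h2, rfl⟩ := hb
  unfold Codes at h1 h2
  exact key_unique hn (h1.symm.trans h2)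

theorem HasKey.eq_key {o w : ℕ} (hn : o + w ≤ n * n) {g : GL (Fin n) (ZMod 2)} {a M : ℕ}
    (ha : HasKey n o w g a) (hM : Codes n g M) : key o w M = a :=
  HasKey.unique hn ⟨M, hM, rfl⟩ ha

theorem vis_map {G H : Type*} [Group G] [Group H] (f : G →* H) (C : List G) (w : List ℕ) (st : List G) :
    vis (C.map f) w (st.map f) = (vis C w st).map f := by
  induction w generalizing st with
  | nil => rfl
  | cons i w ih =>
    rcases i with _ | k
    · rw [vis_zero, vis_zero, ← List.map_tail, ih]
    · rw [vis_succ, vis_succ, getG_map, getG_map, List.map_cons, map_mul, map_mul, map_inv, ← ih, List.map_cons,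
        map_mul, map_mul, map_inv]

/-! ### Pieces of a tree -/

/-- the stack after a path -/
def pstk {G : Type*} [Group G] (C : List G) : List ℕ → List G → List G
  | [], st => st
  | k :: w, st => pstk C w (((getG C k)⁻¹ * getG st 0 * getG C k) :: st)

theorem pstk_cons {G : Type*} [Group G] (C : List G) (k : ℕ) (w : List ℕ) (st : List G) :
    pstk C (k :: w) st = pstk C w (((getG C k)⁻¹ * getG st 0 * getG C k) :: st) := rfl

/-- the stack after a path, packed -/
def pth (n : ℕ) (C Ci : List ℕ) (cont : List ℕ → Bool) (path : List ℕ) : List ℕ → Bool :=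
  List.rec (motive := fun _ => List ℕ → Bool) cont
    (fun k _ ih stack => force (cjc n C Ci k (hd (F2Mat.one n) stack)) fun M => ih (M :: stack)) path

theorem pth_cons (n : ℕ) (C Ci : List ℕ) (cont : List ℕ → Bool) (k : ℕ) (w st : List ℕ) :
    pth n C Ci cont (k :: w) st = pth n C Ci cont w (cjc n C Ci k (hd (F2Mat.one n) st) :: st) :=
  force_eq (cjc n C Ci k (hd (F2Mat.one n) st)) fun M => pth n C Ci cont w (M :: st)

theorem pth_sound {C : List (GL (Fin n) (ZMod 2))} {LC LCi : List ℕ} (hC : List.Forall₂ (Codes n) C LC)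
    (hCi : List.Forall₂ (Codes n) (C.map fun g => g⁻¹) LCi) {cont : List ℕ → Bool} {w : List ℕ}
    {st : List (GL (Fin n) (ZMod 2))} {LS : List ℕ} (hS : List.Forall₂ (Codes n) st LS)
    (h : pth n LC LCi cont w LS = true) :
    ∃ LS', List.Forall₂ (Codes n) (pstk C w st) LS' ∧ cont LS' = true := by
  induction w generalizing st LS with
  | nil => exact ⟨LS, hS, h⟩
  | cons k w ih =>
    rw [pth_cons] at h
    rw [pstk_cons]
    exact ih (.cons (codes_cjc hC hCi k (codes_hd hS)) hS) h

theorem conj_closed {G : Type*} [Group G] {C : List G} {P : G → Prop}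
    (hP : ∀ c ∈ C, ∀ g, P g → P (c⁻¹ * g * c)) (k : ℕ) {g : G} (hg : P g) :
    P ((getG C k)⁻¹ * g * getG C k) := by
  by_cases hk : k < C.length
  · exact hP _ (by unfold getG; rw [List.getD_eq_getElem _ _ hk]; exact List.getElem_mem _) g hg
  · have : getG C k = 1 := by
      unfold getG
      rw [List.getD_eq_default _ _ (by omega)]
    rw [this, inv_one, one_mul, mul_one]
    exact hg

theorem pstk_mem {G : Type*} [Group G] {C : List G} {P : G → Prop} (h1 : P 1)
    (hP : ∀ c ∈ C, ∀ g, P g → P (c⁻¹ * g * c)) {w : List ℕ} {st : List G} (hst : ∀ g ∈ st, P g) :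
    ∀ g ∈ pstk C w st, P g := by
  induction w generalizing st with
  | nil => exact hst
  | cons k w ih =>
    rw [pstk_cons]
    refine ih fun g hg => ?_
    rcases List.mem_cons.1 hg with rfl | hg
    · refine conj_closed hP k ?_
      rcases st with _ | ⟨a, st⟩
      · exact h1
      · exact hst a (List.mem_cons_self)
    · exact hst g hg

theorem pstk_map {G H : Type*} [Group G] [Group H] (f : G →* H) (C : List G) (w : List ℕ) (st : List G) :
    pstk (C.map f) w (st.map f) = (pstk C w st).map f := by
  induction w generalizing st with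
  | nil => rfl
  | cons k w ih =>
    rw [pstk_cons, pstk_cons, getG_map, getG_map, ← ih, List.map_cons, map_mul, map_mul, map_inv]

/-- a piece of the tree: the number of the root, the path to the first element, the program -/
structure Piece where
  /-- number of the root -/
  root : ℕ
  /-- path -/
  path : List ℕ
  /-- program -/
  prog : List ℕ

/-- the elements of a piece -/
def Piece.vis {G : Type*} [Group G] (C T : List G) (p : Piece) : List G :=
  Eng.vis C p.prog (pstk C p.path [getG T p.root])

/-- the test of a piece -/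
def Piece.chk (n : ℕ) (C Ci T : List ℕ) (test : ℕ → Bool) (p : Piece) : Bool :=
  pth n C Ci (fun st => dfs n C Ci test p.prog st) p.path [get (F2Mat.one n) T p.root]

/-- the test of a piece with data -/
def Piece.chkD (n : ℕ) (C Ci T : List ℕ) (test : ℕ → ℕ → Bool) (keys : List ℕ) (p : Piece) : Bool :=
  pth n C Ci (fun st => dfsD n C Ci test p.prog keys st) p.path [get (F2Mat.one n) T p.root]

theorem Piece.vis_map {G H : Type*} [Group G] [Group H] (f : G →* H) (C T : List G) (p : Piece) :
    p.vis (C.map f) (T.map f) = (p.vis C T).map f := by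
  unfold Piece.vis
  rw [getG_map, ← Eng.vis_map, ← pstk_map, List.map_cons, List.map_nil]

theorem Piece.chk_sound {C T : List (GL (Fin n) (ZMod 2))} {LC LCi LT : List ℕ}
    (hC : List.Forall₂ (Codes n) C LC) (hCi : List.Forall₂ (Codes n) (C.map fun g => g⁻¹) LCi)
    (hT : List.Forall₂ (Codes n) T LT) {test : ℕ → Bool} {p : Piece}
    (h : p.chk n LC LCi LT test = true) : ∀ g ∈ p.vis C T, ∃ M, Codes n g M ∧ test M = true := by
  obtain ⟨LS, h1, h2⟩ := pth_sound hC hCi (.cons (codes_get hT p.root) .nil) h
  exact dfs_sound hC hCi h1 h2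

theorem Piece.chkD_sound {C T : List (GL (Fin n) (ZMod 2))} {LC LCi LT : List ℕ}
    (hC : List.Forall₂ (Codes n) C LC) (hCi : List.Forall₂ (Codes n) (C.map fun g => g⁻¹) LCi)
    (hT : List.Forall₂ (Codes n) T LT) {test : ℕ → ℕ → Bool} {keys : List ℕ} {p : Piece}
    (h : p.chkD n LC LCi LT test keys = true) :
    List.Forall₂ (fun g a => ∃ M, Codes n g M ∧ test a M = true) (p.vis C T) keys := by
  obtain ⟨LS, h1, h2⟩ := pth_sound hC hCi (.cons (codes_get hT p.root) .nil) h
  exact dfsD_sound hC hCi h1 h2

theorem Piece.vis_mem {G : Type*} [Group G] {C T : List G} {P : G → Prop} (h1 : P 1)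
    (hP : ∀ c ∈ C, ∀ g, P g → P (c⁻¹ * g * c)) (hT : ∀ g ∈ T, P g) (p : Piece) :
    ∀ g ∈ p.vis C T, P g := by
  refine Eng.vis_mem h1 hP (pstk_mem h1 hP fun g hg => ?_)
  rw [List.mem_singleton] at hg
  subst hg
  by_cases hk : p.root < T.length
  · exact hT _ (by unfold getG; rw [List.getD_eq_getElem _ _ hk]; exact List.getElem_mem _)
  · have : getG T p.root = 1 := by
      unfold getG
      rw [List.getD_eq_default _ _ (by omega)]
    rw [this]; exact h1

/-! ### Lists without repetitions -/

/-- the elements with bit `k` -/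
def part1 (k : ℕ) (L : List ℕ) : List ℕ :=
  List.rec [] (fun a _ ih => Nat.rec ih (fun _ _ => a :: ih) (Nat.land (Nat.shiftRight a k) 1)) L

/-- the elements without bit `k` -/
def part0 (k : ℕ) (L : List ℕ) : List ℕ :=
  List.rec [] (fun a _ ih => Nat.rec (a :: ih) (fun _ _ => ih) (Nat.land (Nat.shiftRight a k) 1)) L

theorem land_one (a k : ℕ) : Nat.land (Nat.shiftRight a k) 1 = (a.testBit k).toNat := by
  have h1 : Nat.land (Nat.shiftRight a k) 1 = (a >>> k) &&& 1 := rfl
  rw [h1, Nat.and_one_is_mod, Nat.shiftRight_eq_div_pow, Nat.testBit_eq_decide_div_mod_eq]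
  rcases Nat.mod_two_eq_zero_or_one (a / 2 ^ k) with h | h <;> rw [h] <;> rfl

theorem part1_eq (k : ℕ) (L : List ℕ) : part1 k L = L.filter fun a => a.testBit k := by
  induction L with
  | nil => rfl
  | cons a L ih =>
    have h : part1 k (a :: L) = Nat.rec (motive := fun _ => List ℕ) (part1 k L) (fun _ _ => a :: part1 k L)
      (Nat.land (Nat.shiftRight a k) 1) := rfl
    rw [h, ih, List.filter_cons, land_one]
    cases a.testBit k <;> rfl

theorem part0_eq (k : ℕ) (L : List ℕ) : part0 k L = L.filter fun a => !a.testBit k := by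
  induction L with
  | nil => rfl
  | cons a L ih =>
    have h : part0 k (a :: L) = Nat.rec (motive := fun _ => List ℕ) (a :: part0 k L) (fun _ _ => part0 k L)
      (Nat.land (Nat.shiftRight a k) 1) := rfl
    rw [h, ih, List.filter_cons, land_one]
    cases a.testBit k <;> rfl

/-- all elements are different: split by the bits `0, ..., k - 1` -/
def nd (k : ℕ) : List ℕ → Bool :=
  Nat.rec (motive := fun _ => List ℕ → Bool)
    (fun L => List.rec true (fun _ l _ => List.rec true (fun _ _ _ => false) l) L)
    (fun k ih L => List.rec true (fun _ l _ => List.rec true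
      (fun _ _ _ => cond (ih (part1 k L)) (ih (part0 k L)) false) l) L) k

theorem nd_sound (k : ℕ) (L : List ℕ) (h : nd k L = true) : L.Nodup := by
  induction k generalizing L with
  | zero =>
    rcases L with _ | ⟨a, _ | ⟨b, L⟩⟩
    · exact List.nodup_nil
    · exact List.nodup_singleton a
    · exact absurd h Bool.false_ne_true
  | succ k ih =>
    rcases L with _ | ⟨a, _ | ⟨b, L⟩⟩
    · exact List.nodup_nil
    · exact List.nodup_singleton a
    · have h1 : cond (nd k (part1 k (a :: b :: L))) (nd k (part0 k (a :: b :: L))) false = true := h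
      rcases h2 : nd k (part1 k (a :: b :: L)) with _ | _
      · rw [h2] at h1; exact absurd h1 Bool.false_ne_true
      rw [h2] at h1
      have h3 : nd k (part0 k (a :: b :: L)) = true := h1
      have h4 := ih _ h2
      have h5 := ih _ h3
      rw [part1_eq] at h4
      rw [part0_eq] at h5
      generalize a :: b :: L = L' at h4 h5
      clear h h1 h2 h3 ih
      induction L' with
      | nil => exact List.nodup_nil
      | cons c L' ihL =>
        rw [List.filter_cons] at h4 h5
        rcases hc : Nat.testBit c k with _ | _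
        · rw [hc] at h4 h5
          simp only [Bool.false_eq_true, if_false] at h4
          simp only [Bool.not_false, if_true, List.nodup_cons] at h5
          refine List.nodup_cons.2 ⟨fun hm => h5.1 (List.mem_filter.2 ⟨hm, by rw [hc]; rfl⟩), ihL h4 h5.2⟩
        · rw [hc] at h4 h5
          simp only [Bool.not_true, Bool.false_eq_true, if_false] at h5
          simp only [if_true, List.nodup_cons] at h4
          refine List.nodup_cons.2 ⟨fun hm => h4.1 (List.mem_filter.2 ⟨hm, by rw [hc]⟩), ihL h4.2 h5⟩

/-- lists with different keys -/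
theorem nodup_of_keys {α : Type*} {R : α → ℕ → Prop} (huniq : ∀ g a b, R g a → R g b → a = b) {L : List α}
    {K : List ℕ} (h : List.Forall₂ R L K) (hK : K.Nodup) : L.Nodup := by
  induction h with
  | nil => exact List.nodup_nil
  | @cons g a L K h1 h2 ih =>
    obtain ⟨h3, h4⟩ := List.nodup_cons.1 hK
    refine List.nodup_cons.2 ⟨fun hm => h3 ?_, ih h4⟩
    obtain ⟨b, hb, h5⟩ : ∃ b ∈ K, R g b := by
      clear ih h3 h4 hK
      induction h2 with
      | nil => exact absurd hm List.not_mem_nil
      | @cons g' a' L' K' h6 _ ih =>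
        rcases List.mem_cons.1 hm with rfl | hm
        · exact ⟨a', List.mem_cons_self, h6⟩
        · obtain ⟨b, hb, h7⟩ := ih hm
          exact ⟨b, List.mem_cons_of_mem _ hb, h7⟩
    rwa [huniq _ _ _ h1 h5]


theorem forall₂_flatten {α β : Type*} {R : α → β → Prop} {L : List (List α)} {K : List (List β)}
    (h : List.Forall₂ (List.Forall₂ R) L K) : List.Forall₂ R L.flatten K.flatten := by
  induction h with
  | nil => exact .nil
  | @cons a b L K h1 _ ih =>
    rw [List.flatten_cons, List.flatten_cons]
    exact List.rel_append h1 ih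

/-- two elements of a list with the same keys are equal if the keys are different -/
theorem eq_of_keys {α : Type*} {R : α → ℕ → Prop} (huniq : ∀ g a b, R g a → R g b → a = b) {L : List α}
    {K : List ℕ} (h : List.Forall₂ R L K) (hK : K.Nodup) {g g' : α} (hg : g ∈ L) (hg' : g' ∈ L) {a : ℕ}
    (ha : R g a) (ha' : R g' a) : g = g' := by
  induction h with
  | nil => exact absurd hg List.not_mem_nil
  | @cons c b L K h1 h2 ih =>
    obtain ⟨h3, h4⟩ := List.nodup_cons.1 hK
    have key : ∀ g ∈ L, ∃ b ∈ K, R g b := by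
      clear ih hK h3 h4 hg hg' h1
      induction h2 with
      | nil => intro g hg; exact absurd hg List.not_mem_nil
      | @cons g' a' L' K' h6 _ ih =>
        intro g hg
        rcases List.mem_cons.1 hg with rfl | hm
        · exact ⟨a', List.mem_cons_self, h6⟩
        · obtain ⟨b, hb, h7⟩ := ih g hm
          exact ⟨b, List.mem_cons_of_mem _ hb, h7⟩
    rcases List.mem_cons.1 hg with hg1 | hg1
    · rcases List.mem_cons.1 hg' with hg2 | hg2
      · rw [hg1, hg2]
      · exfalso
        obtain ⟨e, he, h5⟩ := key _ hg2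
        rw [← hg1] at h1
        rw [huniq _ _ _ h5 ha', huniq _ _ _ ha h1] at he
        exact h3 he
    · rcases List.mem_cons.1 hg' with hg2 | hg2
      · exfalso
        obtain ⟨e, he, h5⟩ := key _ hg1
        rw [← hg2] at h1
        rw [huniq _ _ _ h5 ha, huniq _ _ _ ha' h1] at he
        exact h3 he
      · exact ih h4 hg1 hg2

/-- every element of a finite set is in a long list without repetitions -/
theorem mem_of_card {G : Type*} [Finite G] {P : G → Prop} {L : List G} (hL : ∀ g ∈ L, P g) (hn : L.Nodup)
    (hc : Nat.card {g // P g} ≤ L.length) {g : G} (hg : P g) : g ∈ L := by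
  classical
  by_contra h
  have h1 : (g :: L).Nodup := List.nodup_cons.2 ⟨h, hn⟩
  have h2 : ((g :: L).toFinset : Set G) ⊆ {g | P g} := by
    intro x hx
    rw [List.coe_toFinset] at hx
    rcases List.mem_cons.1 hx with rfl | hx
    · exact hg
    · exact hL x hx
  have h3 := Set.ncard_le_ncard h2 (Set.toFinite _)
  rw [Set.ncard_coe_finset, List.toFinset_card_of_nodup h1, List.length_cons] at h3
  have h4 : Nat.card {g // P g} = Set.ncard {g | P g} := rfl
  omega

/-! ### Vectors -/

theorem codes_vmul {g : GL (Fin n) (ZMod 2)} {M : ℕ} (h : Codes n g M) (v : ℕ) :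
    toVec n (vmul n v M) = Matrix.vecMul (toVec n v) (g : Matrix (Fin n) (Fin n) (ZMod 2)) := by
  unfold Codes at h
  rw [toVec_vmul, ← h]

/-- a necessary condition for `(f * g) ^ 3 = 1`, where `g` is an involution and `p` is fixed by `f` -/
def filt (n p F Fi M : ℕ) : Bool :=
  force (vmul n p M) fun v => Nat.beq (vmul n (vmul n v F) M) (vmul n v Fi)

theorem filt_of {g f : GL (Fin n) (ZMod 2)} {M F Fi p : ℕ} (hg : Codes n g M) (hf : Codes n f F)
    (hfi : Codes n f⁻¹ Fi) (hp : vmul n p F = p) (hgg : g * g = 1)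
    (h3 : f * g * (f * g) * (f * g) = 1) : filt n p F Fi M = true := by
  unfold filt
  rw [force_eq]
  have h4 : g * f * g = f⁻¹ * g * f⁻¹ := by
    have hg' : g⁻¹ = g := inv_eq_of_mul_eq_one_left hgg
    calc g * f * g = f⁻¹ * (f * g * (f * g) * (f * g)) * g⁻¹ * f⁻¹ := by group
      _ = f⁻¹ * g * f⁻¹ := by rw [h3, mul_one, hg']
  have h5 : Matrix.vecMul (toVec n p) (f : Matrix (Fin n) (Fin n) (ZMod 2)) = toVec n p := by
    rw [← codes_vmul hf, hp]
  have h6 : Matrix.vecMul (toVec n p) ((f⁻¹ : GL (Fin n) (ZMod 2)) : Matrix (Fin n) (Fin n) (ZMod 2)) =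
      toVec n p := by
    nth_rw 1 [← h5]
    rw [Matrix.vecMul_vecMul, ← Units.val_mul, mul_inv_cancel, Units.val_one, Matrix.vecMul_one]
  have h7 : vmul n (vmul n (vmul n p M) F) M = vmul n (vmul n p M) Fi := by
    refine toVec_inj (n := n) (vmul_lt _ _) (vmul_lt _ _) ?_
    rw [codes_vmul hg, codes_vmul hf, codes_vmul hfi, codes_vmul hg, Matrix.vecMul_vecMul, Matrix.vecMul_vecMul,
      Matrix.vecMul_vecMul, ← Units.val_mul, ← Units.val_mul, ← Units.val_mul, ← mul_assoc, h4, mul_assoc f⁻¹, Units.val_mul f⁻¹,
      ← Matrix.vecMul_vecMul _ ((f⁻¹ : GL (Fin n) (ZMod 2)) : Matrix (Fin n) (Fin n) (ZMod 2)), h6]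
  rw [h7]
  exact Nat.beq_refl _

/-- membership in a list of numbers -/
def mem (a : ℕ) (L : List ℕ) : Bool := List.rec false (fun b _ ih => cond (Nat.beq a b) true ih) L

theorem mem_sound {a : ℕ} {L : List ℕ} (h : mem a L = true) : a ∈ L := by
  induction L with
  | nil => exact absurd h Bool.false_ne_true
  | cons b L ih =>
    have h1 : cond (Nat.beq a b) true (mem a L) = true := h
    rcases hb : Nat.beq a b with _ | _
    · rw [hb] at h1
      exact List.mem_cons_of_mem _ (ih h1)
    · rw [Nat.eq_of_beq_eq_true hb]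
      exact List.mem_cons_self

end Cfsg.Agent.H111.JM.Eng
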