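import Cfsg.Agent.H111.JM.Eng

/-!
# Enumeration of a matrix group by right multiplications (helper111, S5580)

The same as `Eng.dfs`, with the step `M ↦ M * c_k`.
-/

set_option autoImplicit false

namespace Cfsg.Agent.H111.JM.EngR

open Cfsg.Agent.Lib Cfsg.Agent.Lib.F2Mat Cfsg.Agent.Lib.F2MatGroup
open Cfsg.Agent.H111.JM.Eng

/-- `M * c_k` -/
def rm (n : ℕ) (C : List ℕ) (k M : ℕ) : ℕ := F2Mat.mul n M (get (F2Mat.one n) C k)

/-- the search with data -/
def dfsD (n : ℕ) (C : List ℕ) (test : ℕ → ℕ → Bool) (prog : List ℕ) : List ℕ → List ℕ → Bool :=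
  List.rec (motive := fun _ => List ℕ → List ℕ → Bool)
    (fun keys _ => List.rec true (fun _ _ _ => false) keys)
    (fun i _ ih keys stack => Nat.rec (motive := fun _ => Bool) (ih keys (tl stack))
      (fun k _ => force (rm n C k (hd (F2Mat.one n) stack)) fun M =>
        List.rec false (fun a keys' _ => cond (test a M) (ih keys' (M :: stack)) false) keys) i) prog

theorem dfsD_zero (n : ℕ) (C : List ℕ) (test : ℕ → ℕ → Bool) (w keys st : List ℕ) :
    dfsD n C test (0 :: w) keys st = dfsD n C test w keys (tl st) := rfl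

theorem dfsD_succ_nil (n : ℕ) (C : List ℕ) (test : ℕ → ℕ → Bool) (k : ℕ) (w st : List ℕ) :
    dfsD n C test ((k + 1) :: w) [] st = false :=
  force_eq (rm n C k (hd (F2Mat.one n) st)) fun _ => false

theorem dfsD_succ_cons (n : ℕ) (C : List ℕ) (test : ℕ → ℕ → Bool) (k : ℕ) (w : List ℕ) (a : ℕ)
    (keys st : List ℕ) :
    dfsD n C test ((k + 1) :: w) (a :: keys) st =
      cond (test a (rm n C k (hd (F2Mat.one n) st)))
        (dfsD n C test w keys (rm n C k (hd (F2Mat.one n) st) :: st)) false :=
  force_eq (rm n C k (hd (F2Mat.one n) st)) fun M =>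
        cond (test a M) (dfsD n C test w keys (M :: st)) false

/-- the visited elements -/
def vis {G : Type*} [Group G] (C : List G) : List ℕ → List G → List G
  | [], _ => []
  | 0 :: w, st => vis C w st.tail
  | (k + 1) :: w, st => (getG st 0 * getG C k) :: vis C w ((getG st 0 * getG C k) :: st)

theorem vis_nil {G : Type*} [Group G] (C : List G) (st : List G) : vis C [] st = [] := rfl
theorem vis_zero {G : Type*} [Group G] (C : List G) (w : List ℕ) (st : List G) :
    vis C (0 :: w) st = vis C w st.tail := rfl
theorem vis_succ {G : Type*} [Group G] (C : List G) (k : ℕ) (w : List ℕ) (st : List G) :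
    vis C ((k + 1) :: w) st = (getG st 0 * getG C k) :: vis C w ((getG st 0 * getG C k) :: st) := rfl

variable {n : ℕ}

theorem codes_rm {C : List (GL (Fin n) (ZMod 2))} {LC : List ℕ} (hC : List.Forall₂ (Codes n) C LC) (k : ℕ)
    {g : GL (Fin n) (ZMod 2)} {M : ℕ} (hg : Codes n g M) : Codes n (g * getG C k) (rm n LC k M) :=
  hg.mul (codes_get hC k)

theorem dfsD_sound {C : List (GL (Fin n) (ZMod 2))} {LC : List ℕ} (hC : List.Forall₂ (Codes n) C LC)
    {test : ℕ → ℕ → Bool} {w keys : List ℕ} {st : List (GL (Fin n) (ZMod 2))} {LS : List ℕ}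
    (hS : List.Forall₂ (Codes n) st LS) (h : dfsD n LC test w keys LS = true) :
    List.Forall₂ (fun g a => ∃ M, Codes n g M ∧ test a M = true) (vis C w st) keys := by
  induction w generalizing st LS keys with
  | nil =>
    rcases keys with _ | ⟨a, keys⟩
    · exact .nil
    · exact absurd h Bool.false_ne_true
  | cons i w ih =>
    rcases i with _ | k
    · rw [dfsD_zero] at h
      rw [vis_zero]
      exact ih (forall_tl hS) h
    · rcases keys with _ | ⟨a, keys⟩
      · rw [dfsD_succ_nil] at h
        exact absurd h Bool.false_ne_true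
      · rw [dfsD_succ_cons] at h
        rw [vis_succ]
        have h1 := codes_rm hC k (codes_hd hS)
        rcases ht : test a (rm n LC k (hd (F2Mat.one n) LS)) with _ | _
        · rw [ht] at h; exact absurd h Bool.false_ne_true
        · rw [ht] at h
          exact .cons ⟨_, h1, ht⟩ (ih (.cons h1 hS) h)

/-- the stack after a path -/
def pstk {G : Type*} [Group G] (C : List G) : List ℕ → List G → List G
  | [], st => st
  | k :: w, st => pstk C w ((getG st 0 * getG C k) :: st)

theorem pstk_cons {G : Type*} [Group G] (C : List G) (k : ℕ) (w : List ℕ) (st : List G) :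
    pstk C (k :: w) st = pstk C w ((getG st 0 * getG C k) :: st) := rfl

/-- the stack after a path, packed -/
def pth (n : ℕ) (C : List ℕ) (cont : List ℕ → Bool) (path : List ℕ) : List ℕ → Bool :=
  List.rec (motive := fun _ => List ℕ → Bool) cont
    (fun k _ ih stack => force (rm n C k (hd (F2Mat.one n) stack)) fun M => ih (M :: stack)) path

theorem pth_cons (n : ℕ) (C : List ℕ) (cont : List ℕ → Bool) (k : ℕ) (w st : List ℕ) :
    pth n C cont (k :: w) st = pth n C cont w (rm n C k (hd (F2Mat.one n) st) :: st) :=
  force_eq (rm n C k (hd (F2Mat.one n) st)) fun M => pth n C cont w (M :: st)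

theorem pth_sound {C : List (GL (Fin n) (ZMod 2))} {LC : List ℕ} (hC : List.Forall₂ (Codes n) C LC)
    {cont : List ℕ → Bool} {w : List ℕ} {st : List (GL (Fin n) (ZMod 2))} {LS : List ℕ}
    (hS : List.Forall₂ (Codes n) st LS) (h : pth n LC cont w LS = true) :
    ∃ LS', List.Forall₂ (Codes n) (pstk C w st) LS' ∧ cont LS' = true := by
  induction w generalizing st LS with
  | nil => exact ⟨LS, hS, h⟩
  | cons k w ih =>
    rw [pth_cons] at h
    rw [pstk_cons]
    exact ih (.cons (codes_rm hC k (codes_hd hS)) hS) h

theorem getG_st_mem {G : Type*} [Group G] {K : Subgroup G} {st : List G} (h : ∀ g ∈ st, g ∈ K) :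
    getG st 0 ∈ K := by
  rcases st with _ | ⟨a, st⟩
  · exact K.one_mem
  · exact h a List.mem_cons_self

theorem vis_mem {G : Type*} [Group G] {C : List G} {K : Subgroup G} (hC : ∀ c ∈ C, c ∈ K) {w : List ℕ}
    {st : List G} (hst : ∀ g ∈ st, g ∈ K) : ∀ g ∈ vis C w st, g ∈ K := by
  induction w generalizing st with
  | nil => intro g hg; rw [vis_nil] at hg; exact absurd hg List.not_mem_nil
  | cons i w ih =>
    rcases i with _ | k
    · rw [vis_zero]
      exact ih fun g hg => hst g (List.mem_of_mem_tail hg)
    · rw [vis_succ]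
      have h2 := K.mul_mem (getG_st_mem hst) (getG_mem K hC k)
      intro g hg
      rcases List.mem_cons.1 hg with rfl | hg
      · exact h2
      · refine ih (fun g hg => ?_) g hg
        rcases List.mem_cons.1 hg with rfl | hg
        · exact h2
        · exact hst g hg

theorem pstk_mem {G : Type*} [Group G] {C : List G} {K : Subgroup G} (hC : ∀ c ∈ C, c ∈ K) {w : List ℕ}
    {st : List G} (hst : ∀ g ∈ st, g ∈ K) : ∀ g ∈ pstk C w st, g ∈ K := by
  induction w generalizing st with
  | nil => exact hst
  | cons k w ih =>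
    rw [pstk_cons]
    refine ih fun g hg => ?_
    rcases List.mem_cons.1 hg with rfl | hg
    · exact K.mul_mem (getG_st_mem hst) (getG_mem K hC k)
    · exact hst g hg

theorem vis_map {G H : Type*} [Group G] [Group H] (f : G →* H) (C : List G) (w : List ℕ) (st : List G) :
    vis (C.map f) w (st.map f) = (vis C w st).map f := by
  induction w generalizing st with
  | nil => rfl
  | cons i w ih =>
    rcases i with _ | k
    · rw [vis_zero, vis_zero, ← List.map_tail, ih]
    · rw [vis_succ, vis_succ, getG_map, getG_map, List.map_cons, map_mul, ← ih, List.map_cons, map_mul]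

theorem pstk_map {G H : Type*} [Group G] [Group H] (f : G →* H) (C : List G) (w : List ℕ) (st : List G) :
    pstk (C.map f) w (st.map f) = (pstk C w st).map f := by
  induction w generalizing st with
  | nil => rfl
  | cons k w ih =>
    rw [pstk_cons, pstk_cons, getG_map, getG_map, ← ih, List.map_cons, map_mul]

/-- the elements of a piece (path, program) -/
def pvis {G : Type*} [Group G] (C : List G) (path prog : List ℕ) : List G := vis C prog (pstk C path [1])

/-- the test of a piece -/
def pchk (n : ℕ) (C : List ℕ) (test : ℕ → ℕ → Bool) (path prog keys : List ℕ) : Bool :=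
  pth n C (fun st => dfsD n C test prog keys st) path [F2Mat.one n]

theorem pchk_sound {C : List (GL (Fin n) (ZMod 2))} {LC : List ℕ} (hC : List.Forall₂ (Codes n) C LC)
    {test : ℕ → ℕ → Bool} {path prog keys : List ℕ} (h : pchk n LC test path prog keys = true) :
    List.Forall₂ (fun g a => ∃ M, Codes n g M ∧ test a M = true) (pvis C path prog) keys := by
  obtain ⟨LS, h1, h2⟩ := pth_sound hC (.cons (Codes.one n) .nil) h
  exact dfsD_sound hC h1 h2

theorem pvis_mem {G : Type*} [Group G] {C : List G} {K : Subgroup G} (hC : ∀ c ∈ C, c ∈ K) (path prog : List ℕ) :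
    ∀ g ∈ pvis C path prog, g ∈ K := by
  refine vis_mem hC (pstk_mem hC fun g hg => ?_)
  rw [List.mem_singleton] at hg
  rw [hg]; exact K.one_mem

theorem pvis_map {G H : Type*} [Group G] [Group H] (f : G →* H) (C : List G) (path prog : List ℕ) :
    pvis (C.map f) path prog = (pvis C path prog).map f := by
  unfold pvis
  rw [← vis_map, ← pstk_map, List.map_cons, List.map_nil, map_one]

end Cfsg.Agent.H111.JM.EngR
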