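import Cfsg.Agent.H111.JM.Psl7

/-!
# A subgroup `PSL₂(7)` without centralizer, whose elements of order 7 are not real in the group, is
self-normalizing (helper111, S5580)
-/

set_option autoImplicit false

namespace Cfsg.Agent.H111.JM.NormS

open Cfsg.Agent.H111.JM.Psl7

variable {G : Type*} [Group G]

theorem conj_pow' (g f : G) (n : ℕ) : g * f ^ n * g⁻¹ = (g * f * g⁻¹) ^ n := (conj_pow).symm

/-- two elements of order 7 of a group of order 168 generate conjugate subgroups -/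
theorem sylow7 {S : Subgroup G} [Finite S] (hc : Nat.card S = 168) {f f' : G} (hf : f ∈ S) (hf' : f' ∈ S)
    (h1 : f ≠ 1) (h7 : f ^ 7 = 1) (h1' : f' ≠ 1) (h7' : f' ^ 7 = 1) :
    ∃ s ∈ S, s * f' * s⁻¹ ∈ Subgroup.zpowers f := by
  have hp : Fact (Nat.Prime 7) := ⟨by norm_num⟩
  have ho : orderOf (⟨f, hf⟩ : S) = 7 := orderOf_eq_prime (Subtype.ext h7) (fun h => h1 (congrArg Subtype.val h))
  have ho' : orderOf (⟨f', hf'⟩ : S) = 7 :=
    orderOf_eq_prime (Subtype.ext h7') (fun h => h1' (congrArg Subtype.val h))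
  have hm : Nat.card (S : Type _) = 7 ^ 1 * 24 := by rw [hc]; norm_num
  have hcard : ∀ x : S, orderOf x = 7 → Nat.card (Subgroup.zpowers x) = 7 ^ (Nat.card S).factorization 7 := by
    intro x hx
    rw [Nat.card_zpowers, hx, hc]
    have : (168 : ℕ).factorization 7 = 1 := by
      rw [show (168 : ℕ) = 7 ^ 1 * 24 from by norm_num, Nat.factorization_mul (by norm_num) (by norm_num),
        Nat.Prime.factorization_pow (by norm_num)]
      simp [Nat.factorization_eq_zero_of_not_dvd]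
    rw [this, pow_one]
  let P : Sylow 7 S := Sylow.ofCard (Subgroup.zpowers ⟨f, hf⟩) (hcard _ ho)
  let P' : Sylow 7 S := Sylow.ofCard (Subgroup.zpowers ⟨f', hf'⟩) (hcard _ ho')
  obtain ⟨s, hs⟩ := MulAction.exists_smul_eq S P' P
  refine ⟨s, s.2, ?_⟩
  have h3 : (s : S) * ⟨f', hf'⟩ * s⁻¹ ∈ (P : Subgroup S) := by
    rw [← hs]
    exact Subgroup.mem_map.2 ⟨⟨f', hf'⟩, Subgroup.mem_zpowers _, rfl⟩
  obtain ⟨k, hk⟩ := Subgroup.mem_zpowers_iff.1 (show (s : S) * ⟨f', hf'⟩ * s⁻¹ ∈ Subgroup.zpowers ⟨f, hf⟩ from h3)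
  exact Subgroup.mem_zpowers_iff.2 ⟨k, by have := congrArg Subtype.val hk; simpa using this⟩

/-- **The normalizer.** -/
theorem norm_le [Finite G] {S : Subgroup G} {f y t : G} (hf : f ∈ S) (hy : y ∈ S) (ht : t ∈ S)
    (h : Tri f y t) (hc : Nat.card S = 168) (hcl : S = Subgroup.closure {f, y, t})
    (h1 : ∀ w ∈ S, w * f * w⁻¹ = f → ∃ j : ℕ, w = f ^ j)
    (h2 : ∀ w ∈ S, w * y * w⁻¹ = y⁻¹ → f * w * (f * w) * (f * w) = 1 → w = t)
    (hN : ∀ g : G, g * f * g⁻¹ ∈ Subgroup.zpowers f → g ^ 3 * f * (g ^ 3)⁻¹ = f)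
    (hC : Subgroup.centralizer (S : Set G) = ⊥) : Subgroup.normalizer (S : Set G) ≤ S := by
  classical
  have hfo : orderOf f = 7 := orderOf_eq_prime h.f7 h.f1
  -- an element of the normalizer which commutes with `f` and `y` is trivial
  have s3 : ∀ g ∈ Subgroup.normalizer (S : Set G), g * f * g⁻¹ = f → g * y * g⁻¹ = y → g = 1 := by
    intro g hg gf gy
    have e1 : g * t * g⁻¹ = t := by
      refine h2 _ ((Subgroup.mem_normalizer_iff.1 hg t).1 ht) ?_ ?_
      · calc g * t * g⁻¹ * y * (g * t * g⁻¹)⁻¹ = g * t * (g⁻¹ * y * g) * t⁻¹ * g⁻¹ := by group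
          _ = g * (t * y * t⁻¹) * g⁻¹ := by
            have : g⁻¹ * y * g = y := by nth_rw 1 [← gy]; group
            rw [this]; group
          _ = (g * y * g⁻¹)⁻¹ := by rw [h.ty]; group
          _ = y⁻¹ := by rw [gy]
      · nth_rw 1 [← gf]
        nth_rw 2 [← gf]
        nth_rw 3 [← gf]
        calc _ = g * (f * t * (f * t) * (f * t)) * g⁻¹ := by group
          _ = 1 := by rw [h.ft]; group
    have e2 : g ∈ Subgroup.centralizer (S : Set G) := by
      rw [hcl, Subgroup.centralizer_closure, Subgroup.mem_centralizer_iff]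
      intro x hx
      simp only [Set.mem_insert_iff, Set.mem_singleton_iff] at hx
      rcases hx with rfl | rfl | rfl
      · exact (mul_inv_eq_iff_eq_mul.1 gf).symm
      · exact (mul_inv_eq_iff_eq_mul.1 gy).symm
      · exact (mul_inv_eq_iff_eq_mul.1 e1).symm
    rw [hC] at e2
    exact Subgroup.mem_bot.1 e2
  have f4 : y⁻¹ * f * y = f ^ 4 := by
    have e : y * f ^ 4 * y⁻¹ = f := by
      rw [conj_pow', h.yf, ← pow_mul, show 2 * 4 = 7 + 1 from rfl, pow_succ, h.f7, one_mul]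
    nth_rw 1 [← e]
    group
  -- an element of the normalizer which commutes with `f`
  have s2 : ∀ g ∈ Subgroup.normalizer (S : Set G), g * f * g⁻¹ = f → g ∈ S := by
    intro g hg gf
    have gf' : g⁻¹ * f * g = f := by nth_rw 1 [← gf]; group
    obtain ⟨m, hm⟩ := h1 (g * y * g⁻¹ * y⁻¹)
      (S.mul_mem ((Subgroup.mem_normalizer_iff.1 hg y).1 hy) (S.inv_mem hy)) (by
        calc g * y * g⁻¹ * y⁻¹ * f * (g * y * g⁻¹ * y⁻¹)⁻¹
            = g * y * (g⁻¹ * (y⁻¹ * f * y) * g) * y⁻¹ * g⁻¹ := by group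
          _ = g * y * (g⁻¹ * f * g) ^ 4 * y⁻¹ * g⁻¹ := by
            rw [f4]
            have : g⁻¹ * f ^ 4 * g = (g⁻¹ * f * g) ^ 4 := by
              have := conj_pow' g⁻¹ f 4
              rw [inv_inv] at this
              exact this
            rw [this]
          _ = g * (y * f ^ 4 * y⁻¹) * g⁻¹ := by rw [gf']; group
          _ = f := by rw [← f4]; rw [show g * (y * (y⁻¹ * f * y) * y⁻¹) * g⁻¹ = g * f * g⁻¹ from by group]; exact gf)
    have hm' : g * y * g⁻¹ = f ^ m * y := by rw [← hm]; group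
    have e1 : f ^ m * g = 1 := by
      refine s3 _ (Subgroup.mul_mem _ (Subgroup.le_normalizer (S.pow_mem hf m)) hg) ?_ ?_
      · calc f ^ m * g * f * (f ^ m * g)⁻¹ = f ^ m * (g * f * g⁻¹) * (f ^ m)⁻¹ := by group
          _ = f := by rw [gf, ← pow_succ, pow_succ']; group
      · calc f ^ m * g * y * (f ^ m * g)⁻¹ = f ^ m * (g * y * g⁻¹) * (f ^ m)⁻¹ := by group
          _ = f ^ m * f ^ m * (y * f ^ m * y⁻¹)⁻¹ * y := by rw [hm']; group
          _ = y := by rw [conj_pow', h.yf, ← pow_mul, two_mul, pow_add]; group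
    have e2 : g = (f ^ m)⁻¹ := (inv_eq_of_mul_eq_one_right e1).symm
    rw [e2]
    exact S.inv_mem (S.pow_mem hf m)
  intro g hg
  have h7' : (g * f * g⁻¹) ^ 7 = 1 := by rw [← conj_pow', h.f7]; group
  have h1' : g * f * g⁻¹ ≠ 1 := by
    intro e
    apply h.f1
    have : f = g⁻¹ * (g * f * g⁻¹) * g := by group
    rw [this, e]; group
  obtain ⟨s, hs, e1⟩ := sylow7 hc hf ((Subgroup.mem_normalizer_iff.1 hg f).1 hf) h.f1 h.f7 h1' h7'
  have e2 : s * g * f * (s * g)⁻¹ ∈ Subgroup.zpowers f := by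
    have : s * g * f * (s * g)⁻¹ = s * (g * f * g⁻¹) * s⁻¹ := by group
    rw [this]; exact e1
  have hsg : s * g ∈ Subgroup.normalizer (S : Set G) := Subgroup.mul_mem _ (Subgroup.le_normalizer hs) hg
  have e3 := hN _ e2
  obtain ⟨k, hk7, hk⟩ : ∃ k : ℕ, k < 7 ∧ f ^ k = s * g * f * (s * g)⁻¹ := by
    rw [mem_zpowers_iff_mem_range_orderOf, hfo] at e2
    obtain ⟨k, hk, e4⟩ := Finset.mem_image.1 e2
    exact ⟨k, Finset.mem_range.1 hk, e4⟩
  obtain ⟨u, hug⟩ : ∃ u, u = s * g := ⟨_, rfl⟩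
  rw [← hug] at e2 hsg e3 hk
  have u1 : u * f * u⁻¹ = f ^ k := hk.symm
  have u3 : f ^ (k * k * k) = f := by
    calc f ^ (k * k * k) = u * (u * (u * f * u⁻¹) * u⁻¹) * u⁻¹ := by
          rw [u1, conj_pow', u1, ← pow_mul, conj_pow', u1, ← pow_mul]
          rw [mul_assoc]
      _ = u ^ 3 * f * (u ^ 3)⁻¹ := by
          simp only [pow_succ, pow_zero, one_mul, mul_inv_rev, mul_assoc]
      _ = f := e3
  have u4 : k * k * k ≡ 1 [MOD 7] := by
    rw [← hfo]
    exact (pow_inj_mod.1 (u3.trans (pow_one f).symm))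
  have hu : u ∈ S := by
    have hyN : y ∈ Subgroup.normalizer (S : Set G) := Subgroup.le_normalizer hy
    have k3 : k = 1 ∨ k = 2 ∨ k = 4 := by
      unfold Nat.ModEq at u4
      interval_cases k <;> omega
    rcases k3 with rfl | rfl | rfl
    · exact s2 _ hsg (by rw [u1, pow_one])
    · have := s2 (y⁻¹ * u) (Subgroup.mul_mem _ (Subgroup.inv_mem _ hyN) hsg) (by
        calc y⁻¹ * u * f * (y⁻¹ * u)⁻¹ = y⁻¹ * (u * f * u⁻¹) * y := by group
          _ = f := by rw [u1, ← h.yf]; group)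
      have h5 : u = y * (y⁻¹ * u) := by group
      rw [h5]
      exact S.mul_mem hy this
    · have := s2 (y⁻¹ * (y⁻¹ * u)) (Subgroup.mul_mem _ (Subgroup.inv_mem _ hyN)
          (Subgroup.mul_mem _ (Subgroup.inv_mem _ hyN) hsg)) (by
        calc y⁻¹ * (y⁻¹ * u) * f * (y⁻¹ * (y⁻¹ * u))⁻¹ = y⁻¹ * (y⁻¹ * (u * f * u⁻¹) * y) * y := by
              simp only [mul_inv_rev, inv_inv, mul_assoc]
          _ = f := by
            have h6 : f ^ 4 = y * (y * f * y⁻¹) * y⁻¹ := by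
              rw [h.yf, conj_pow', h.yf, ← pow_mul]
            rw [u1, h6]
            simp only [mul_assoc, inv_mul_cancel_left, inv_mul_cancel, mul_one])
      have h5 : u = y * (y * (y⁻¹ * (y⁻¹ * u))) := by group
      rw [h5]
      exact S.mul_mem hy (S.mul_mem hy this)
  have h8 : g = s⁻¹ * u := by rw [hug]; group
  rw [h8]
  exact S.mul_mem (S.inv_mem hs) hu

end Cfsg.Agent.H111.JM.NormS
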