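import Cfsg.Agent.H265.JM.PslGens

/-!
# Generators of `PSL₂(7)` (helper111, S5580)

`Tri f y t` : the relations of the triple `(1,1;0,1)`, `diag(4,2)`, `(0,1;-1,0)`.
-/

set_option autoImplicit false

namespace Cfsg.Agent.H111.JM.Psl7

open Matrix Cfsg.Agent.H911.SLTwo
open Cfsg.Agent.H265.JM.PslGens (gen)

/-- relations of the triple of generators -/
structure Tri {S : Type*} [Group S] (f y t : S) : Prop where
  f1 : f ≠ 1
  f7 : f ^ 7 = 1
  yf : y * f * y⁻¹ = f ^ 2
  y1 : y ≠ 1
  y3 : y ^ 3 = 1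
  tt : t * t = 1
  ty : t * y * t⁻¹ = y⁻¹
  ft : f * t * (f * t) * (f * t) = 1

theorem Tri.map {S S' : Type*} [Group S] [Group S'] {f y t : S} (h : Tri f y t) (e : S →* S')
    (he : Function.Injective e) : Tri (e f) (e y) (e t) where
  f1 := by rw [Ne, map_eq_one_iff e he]; exact h.f1
  f7 := by rw [← map_pow, h.f7, map_one]
  yf := by rw [← map_mul, ← map_inv, ← map_mul, h.yf, map_pow]
  y1 := by rw [Ne, map_eq_one_iff e he]; exact h.y1
  y3 := by rw [← map_pow, h.y3, map_one]
  tt := by rw [← map_mul, h.tt, map_one]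
  ty := by rw [← map_mul, ← map_inv, ← map_mul, h.ty, map_inv]
  ft := by rw [← map_mul, ← map_mul, ← map_mul, h.ft, map_one]

instance fact7 : Fact (Nat.Prime 7) := ⟨by norm_num⟩

abbrev SS := SpecialLinearGroup (Fin 2) (ZMod 7)
abbrev TT := ProjectiveSpecialLinearGroup (Fin 2) (ZMod 7)

/-- the projection -/
def pr : SS →* TT := QuotientGroup.mk' _

theorem pr_surjective : Function.Surjective pr := QuotientGroup.mk'_surjective _

theorem pr_neg_one : pr (-1) = 1 := by
  rw [pr, QuotientGroup.mk'_apply, QuotientGroup.eq_one_iff, Matrix.SpecialLinearGroup.mem_center_iff]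
  refine ⟨-1, by decide, ?_⟩
  ext i j
  simp [Matrix.scalar_apply, Matrix.diagonal_apply, Matrix.one_apply]
  split <;> simp

theorem pr_eq_one {g : SS} (h : pr g = 1) : g = 1 ∨ g = -1 := by
  rw [pr, QuotientGroup.mk'_apply, QuotientGroup.eq_one_iff, Matrix.SpecialLinearGroup.mem_center_iff] at h
  obtain ⟨r, hr1, hr⟩ := h
  have h1 : ∀ r : ZMod 7, r ^ Fintype.card (Fin 2) = 1 → r = 1 ∨ r = -1 := by decide
  have e00 : g.1 0 0 = r := by rw [← hr]; simp
  have e01 : g.1 0 1 = 0 := by rw [← hr]; simp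
  have e10 : g.1 1 0 = 0 := by rw [← hr]; simp
  have e11 : g.1 1 1 = r := by rw [← hr]; simp
  rcases h1 r hr1 with rfl | rfl
  · left; apply ext' <;> simp only [e00, e01, e10, e11, o00, o01, o10, o11]
  · right; apply ext' <;> simp only [e00, e01, e10, e11, n00, n01, n10, n11, o00, o01, o10, o11, neg_zero]

theorem pr_eq {g h : SS} (hh : pr g = pr h) : g = h ∨ g = -h := by
  have h1 : pr (g * h⁻¹) = 1 := by rw [map_mul, map_inv, hh, mul_inv_cancel]
  rcases pr_eq_one h1 with h2 | h2
  · left; exact mul_inv_eq_one.1 h2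
  · right
    rw [mul_inv_eq_iff_eq_mul] at h2
    rw [h2, neg_one_mul]

/-- the unit 4 -/
def four : (ZMod 7)ˣ := ⟨4, 2, by decide, by decide⟩

theorem tri : Tri (pr (U 1)) (pr (hh four)) (pr ww) where
  f1 := by
    intro h
    rcases pr_eq_one h with h | h
    · have := congrArg (fun g : SS => g.1 0 1) h
      exact absurd this (by decide)
    · have := congrArg (fun g : SS => g.1 0 1) h
      exact absurd this (by decide)
  f7 := by
    rw [← map_pow, U_pow]
    have : ((7 : ℕ) : ZMod 7) * 1 = 0 := by decide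
    rw [this, U_zero, map_one]
  yf := by
    rw [← map_mul, ← map_inv, ← map_mul, ← map_pow, hU, U_pow]
    congr 1
  y1 := by
    intro h
    rcases pr_eq_one h with h | h
    · have := congrArg (fun g : SS => g.1 0 0) h
      exact absurd this (by decide)
    · have := congrArg (fun g : SS => g.1 0 0) h
      exact absurd this (by decide)
  y3 := by
    rw [← map_pow]
    have h1 : (hh four : SS) ^ 3 = 1 := by
      rw [pow_succ, pow_two]
      apply ext' <;> decide
    rw [h1, map_one]
  tt := by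
    rw [← map_mul]
    have h1 : (ww : SS) * ww = -1 := by
      apply ext' <;> decide
    rw [h1, pr_neg_one]
  ty := by
    rw [← map_mul, ← map_inv, ← map_inv, ← map_mul]
    congr 1
    apply ext' <;> decide
  ft := by
    rw [← map_mul, ← map_mul, ← map_mul]
    have h1 : (U 1 : SS) * ww * (U 1 * ww) * (U 1 * ww) = 1 := by
      apply ext' <;> decide
    rw [h1, map_one]

theorem gens : Subgroup.closure {pr (U 1), pr (hh four), pr ww} = ⊤ := by
  have h1 : Subgroup.comap pr (Subgroup.closure {pr (U 1), pr (hh four), pr ww}) = ⊤ := by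
    apply gen
    · exact Subgroup.subset_closure (by simp)
    · exact Subgroup.subset_closure (by simp)
  rw [eq_top_iff]
  rintro x -
  obtain ⟨g, rfl⟩ := pr_surjective x
  have : g ∈ Subgroup.comap pr (Subgroup.closure {pr (U 1), pr (hh four), pr ww}) := by
    rw [h1]; exact Subgroup.mem_top _
  exact this

/-- the centralizer of `f` -/
theorem cent_f (w : TT) (hw : w * pr (U 1) * w⁻¹ = pr (U 1)) : ∃ j : ℕ, w = pr (U 1) ^ j := by
  obtain ⟨g, rfl⟩ := pr_surjective w
  rw [mul_inv_eq_iff_eq_mul, ← map_mul, ← map_mul] at hw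
  have hdet := det_eq g
  have key : g.1 1 0 = 0 ∧ g.1 0 0 = g.1 1 1 := by
    rcases pr_eq hw with h | h
    · have e00 := congrArg (fun g : SS => g.1 0 0) h
      have e01 := congrArg (fun g : SS => g.1 0 1) h
      simp only [m00, m01, U00, U01, U10, U11] at e00 e01
      constructor
      · linear_combination -e00
      · linear_combination e01
    · exfalso
      have e00 := congrArg (fun g : SS => g.1 0 0) h
      have e10 := congrArg (fun g : SS => g.1 1 0) h
      have e11 := congrArg (fun g : SS => g.1 1 1) h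
      simp only [m00, m10, m11, n00, n10, n11, U00, U01, U10, U11] at e00 e10 e11
      have aux : ∀ c : ZMod 7, c * 1 + (0 : ZMod 7) = - (0 * (0 : ZMod 7) + 1 * c) → c = 0 := by decide
      have h10 : g.1 1 0 = 0 := by
        apply aux
        linear_combination e10
      have aux2 : ∀ a b c : ZMod 7, c = 0 → a * 1 + b * 0 = -(1 * a + 1 * c) → a = 0 := by decide
      have h00 : g.1 0 0 = 0 := aux2 _ _ _ h10 e00
      rw [h10, h00, zero_mul, mul_zero, sub_zero] at hdet
      exact zero_ne_one hdet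
  obtain ⟨h10, h2⟩ := key
  have h3 : ∀ a : ZMod 7, a * a = 1 → a = 1 ∨ a = -1 := by decide
  have h4 : g.1 1 1 = 1 ∨ g.1 1 1 = -1 := by
    apply h3
    rw [h10, h2] at hdet
    linear_combination hdet
  rcases h4 with h4 | h4
  · refine ⟨(g.1 0 1).val, ?_⟩
    rw [← map_pow, U_pow, mul_one, ZMod.natCast_val, ZMod.cast_id]
    congr 1
    apply ext' <;> simp only [h2, h4, h10, U00, U01, U10, U11]
  · refine ⟨(-(g.1 0 1)).val, ?_⟩
    rw [← map_pow, U_pow, mul_one, ZMod.natCast_val, ZMod.cast_id]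
    have h5 : g = -U (-(g.1 0 1)) := by
      apply ext' <;> simp only [h2, h4, h10, n00, n01, n10, n11, U00, U01, U10, U11, neg_neg, neg_zero]
    rw [← neg_one_mul] at h5
    have h6 := congrArg pr h5
    rw [map_mul, pr_neg_one, one_mul] at h6
    exact h6

/-- `t` is unique -/
theorem uniq_t (w : TT) (h2 : w * pr (hh four) * w⁻¹ = (pr (hh four))⁻¹)
    (h3 : pr (U 1) * w * (pr (U 1) * w) * (pr (U 1) * w) = 1) : w = pr ww := by
  obtain ⟨g, rfl⟩ := pr_surjective w
  rw [mul_inv_eq_iff_eq_mul, ← map_mul, ← map_inv, ← map_mul] at h2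
  rw [← map_mul, ← map_mul, ← map_mul] at h3
  have hdet := det_eq g
  have key : g.1 0 0 = 0 ∧ g.1 1 1 = 0 := by
    rcases pr_eq h2 with h | h
    · have e00 := congrArg (fun g : SS => g.1 0 0) h
      have e11 := congrArg (fun g : SS => g.1 1 1) h
      simp only [m00, m11, i00, i01, i10, i11, hh00, hh01, hh10, hh11] at e00 e11
      have a1 : ∀ a b c : ZMod 7, a * (four : (ZMod 7)ˣ) + b * 0 =
        ((four⁻¹ : (ZMod 7)ˣ) : ZMod 7) * a + -0 * c → a = 0 := by decide
      have a2 : ∀ a b c : ZMod 7, b * 0 + a * ((four⁻¹ : (ZMod 7)ˣ) : ZMod 7) =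
        -0 * c + ((four : (ZMod 7)ˣ) : ZMod 7) * a → a = 0 := by decide
      exact ⟨a1 _ _ _ e00, a2 _ _ _ e11⟩
    · exfalso
      have e00 := congrArg (fun g : SS => g.1 0 0) h
      have e01 := congrArg (fun g : SS => g.1 0 1) h
      simp only [m00, m01, n00, n01, i00, i01, hh00, hh01, hh10, hh11] at e00 e01
      have a1 : ∀ a b c : ZMod 7, a * (four : (ZMod 7)ˣ) + b * 0 =
        -(((four⁻¹ : (ZMod 7)ˣ) : ZMod 7) * a + -0 * c) → a = 0 := by decide
      have a2 : ∀ a b c : ZMod 7, a * 0 + b * ((four⁻¹ : (ZMod 7)ˣ) : ZMod 7) =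
        -(((four⁻¹ : (ZMod 7)ˣ) : ZMod 7) * b + -0 * c) → b = 0 := by decide
      rw [a1 _ _ _ e00, a2 _ _ _ e01, zero_mul, zero_mul, sub_zero] at hdet
      exact zero_ne_one hdet
  obtain ⟨k0, k1⟩ := key
  rw [k0, k1, zero_mul, zero_sub] at hdet
  have e : (U 1 : SS) * g * (U 1 * g) * (U 1 * g) = 1 ∨ (U 1 : SS) * g * (U 1 * g) * (U 1 * g) = -1 := pr_eq_one h3
  have h5 : g.1 0 1 = 1 ∧ g.1 1 0 = -1 ∨ g.1 0 1 = -1 ∧ g.1 1 0 = 1 := by
    rcases e with e | e
    · have e01 := congrArg (fun g : SS => g.1 0 1) e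
      simp only [m00, m01, m10, m11, U00, U01, U10, U11, o01, k0, k1] at e01
      revert hdet e01
      generalize g.1 0 1 = b
      generalize g.1 1 0 = c
      revert b c
      decide
    · have e01 := congrArg (fun g : SS => g.1 0 1) e
      simp only [m00, m01, m10, m11, U00, U01, U10, U11, n01, o01, k0, k1] at e01
      revert hdet e01
      generalize g.1 0 1 = b
      generalize g.1 1 0 = c
      revert b c
      decide
  rcases h5 with ⟨h5, h6⟩ | ⟨h5, h6⟩
  · congr 1
    apply ext' <;> simp only [k0, k1, h5, h6, ww00, ww01, ww10, ww11]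
  · have h7 : g = -ww := by
      apply ext' <;> simp only [k0, k1, h5, h6, n00, n01, n10, n11, ww00, ww01, ww10, ww11, neg_neg, neg_zero]
    rw [← neg_one_mul] at h7
    rw [h7, map_mul, pr_neg_one, one_mul]

theorem card_TT : Nat.card TT = 168 := by
  have h := Cfsg.Agent.ClassicalGeometry.PSL2Basic.card_PSL2_odd (F := ZMod 7) (by rw [ZMod.card]; decide)
  rw [ZMod.card] at h
  have h2 : Nat.card TT * 2 = 168 * 2 := h.trans (by norm_num)
  exact Nat.eq_of_mul_eq_mul_right two_pos h2

/-- transport from a field with 7 elements -/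
theorem exists_equiv {F : Type*} [Field F] [Fintype F] (h : Fintype.card F = 7) :
    Nonempty (TT ≃* ProjectiveSpecialLinearGroup (Fin 2) F) :=
  ⟨LieClassical.FieldTransfer.pslCongr (ZMod.ringEquivOfPrime F (by norm_num) h)⟩

/-- **generators of a group isomorphic to `PSL₂(7)`** -/
theorem exists_gens {S : Type*} [Group S] {F : Type*} [Field F] [Fintype F] (h : Fintype.card F = 7)
    (e : S ≃* ProjectiveSpecialLinearGroup (Fin 2) F) : Nat.card S = 168 ∧
    ∃ f y t : S, Tri f y t ∧ Subgroup.closure {f, y, t} = ⊤ ∧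
      (∀ w : S, w * f * w⁻¹ = f → ∃ j : ℕ, w = f ^ j) ∧
      (∀ w : S, w * y * w⁻¹ = y⁻¹ → f * w * (f * w) * (f * w) = 1 → w = t) := by
  obtain ⟨e1⟩ := exists_equiv h
  let E : TT ≃* S := e1.trans e.symm
  refine ⟨(Nat.card_congr E.toEquiv).symm.trans card_TT, ?_⟩
  refine ⟨E (pr (U 1)), E (pr (hh four)), E (pr ww), tri.map E.toMonoidHom E.injective, ?_, ?_, ?_⟩
  · have h8 : Subgroup.closure {E (pr (U 1)), E (pr (hh four)), E (pr ww)} =
        (Subgroup.closure {pr (U 1), pr (hh four), pr ww}).map E.toMonoidHom := by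
      rw [MonoidHom.map_closure]
      congr 1
      ext x
      simp [eq_comm]
    rw [h8, gens, Subgroup.map_top_of_surjective _ E.surjective]
  · intro w hw
    obtain ⟨v, rfl⟩ := E.surjective w
    rw [← map_mul, ← map_inv, ← map_mul] at hw
    obtain ⟨j, hj⟩ := cent_f v (E.injective hw)
    exact ⟨j, by rw [hj, map_pow]⟩
  · intro w h2 h3
    obtain ⟨v, rfl⟩ := E.surjective w
    rw [← map_mul, ← map_inv, ← map_mul, ← map_inv] at h2
    rw [← map_mul, ← map_mul, ← map_mul] at h3
    have h4 : E (pr (U 1) * v * (pr (U 1) * v) * (pr (U 1) * v)) = E 1 := by rw [map_one]; exact h3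
    rw [uniq_t v (E.injective h2) (E.injective h4)]

end Cfsg.Agent.H111.JM.Psl7
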