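import Cfsg.Agent.H111.JM.EnvD
import Cfsg.Agent.H111.JM.PcData
import Cfsg.Agent.H111.JM.PK.K00
import Cfsg.Agent.H111.JM.PK.K01
import Cfsg.Agent.H111.JM.PK.K02
import Cfsg.Agent.H111.JM.PK.K03
import Cfsg.Agent.H111.JM.PK.K04
import Cfsg.Agent.H111.JM.PK.K05
import Cfsg.Agent.H111.JM.PK.K06
import Cfsg.Agent.H111.JM.PK.K07
import Cfsg.Agent.H111.JM.PK.K08
import Cfsg.Agent.H111.JM.PK.K09
import Cfsg.Agent.H111.JM.PK.K10
import Cfsg.Agent.H111.JM.PK.K11
import Cfsg.Agent.H111.JM.PK.K12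

/-!
# The complete list of the involutions inverting `y0` (helper111, S5580)

`PL` : the 52 pieces; `VL` : the 10296 elements; `HK t a` : the element `t` has key `a`.
-/

set_option autoImplicit false
set_option maxRecDepth 100000

open Cfsg

namespace Cfsg.Agent.H111.JM.TList

open Cfsg.Agent.Lib Cfsg.Agent.Lib.F2Mat Cfsg.Agent.Lib.F2MatGroup
open Cfsg.Agent.J4.Rep112
open Cfsg.Agent.H858.VK
open Cfsg.Agent.H878.JM.Base
open Cfsg.Agent.H111.JM.Eng Cfsg.Agent.H111.JM.Env Cfsg.Agent.H111.JM.Pc Cfsg.Agent.H111.JM.PK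

/-- the pieces -/
def PL : List Piece := [pc0, pc1, pc2, pc3, pc4, pc5, pc6, pc7, pc8, pc9, pc10, pc11, pc12, pc13, pc14, pc15, pc16, pc17, pc18, pc19,
  pc20, pc21, pc22, pc23, pc24, pc25, pc26, pc27, pc28, pc29, pc30, pc31, pc32, pc33, pc34, pc35, pc36, pc37,
  pc38, pc39, pc40, pc41, pc42, pc43, pc44, pc45, pc46, pc47, pc48, pc49, pc50, pc51]

/-- the keys -/
def KL : List (List ℕ) := [ky0, ky1, ky2, ky3, ky4, ky5, ky6, ky7, ky8, ky9, ky10, ky11, ky12, ky13, ky14, ky15, ky16, ky17, ky18, ky19,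
  ky20, ky21, ky22, ky23, ky24, ky25, ky26, ky27, ky28, ky29, ky30, ky31, ky32, ky33, ky34, ky35, ky36, ky37,
  ky38, ky39, ky40, ky41, ky42, ky43, ky44, ky45, ky46, ky47, ky48, ky49, ky50, ky51]

theorem nodup_keys : (key 12159 24 (F2Mat.one 112) :: KL.flatten).Nodup :=
  nd_sound 24 _ (by decide +kernel)

theorem length_keys : KL.flatten.length = 10296 := by decide +kernel

/-- the 10296 elements -/
noncomputable def VL : List Cfsg.Spor.J4 := (PL.map (Piece.vis CJ TJ)).flatten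

/-- the element `t` has key `a` -/
def HK (t : Cfsg.Spor.J4) (a : ℕ) : Prop := HasKey 112 12159 24 (rho t) a

theorem HK.unique {t : Cfsg.Spor.J4} {a b : ℕ} (ha : HK t a) (hb : HK t b) : a = b :=
  HasKey.unique (by norm_num) ha hb

theorem HK.of_codes {t : Cfsg.Spor.J4} {M a : ℕ} (hM : Codes 112 (rho t) M)
    (h : Nat.beq (key 12159 24 M) a = true) : HK t a := ⟨M, hM, Nat.eq_of_beq_eq_true h⟩

theorem fk {p : Piece} {K : List ℕ}
    (h : p.chkD 112 LC LC LT (fun a M => Nat.beq (key 12159 24 M) a) K = true) :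
    List.Forall₂ HK (p.vis CJ TJ) K :=
  (chkD_sound h).imp fun _ _ ⟨_, h1, h2⟩ => HK.of_codes h1 h2

theorem forall_keys : List.Forall₂ HK VL KL.flatten :=
  forall₂_flatten (
    (.cons (fk k0)
    (.cons (fk k1)
    (.cons (fk k2)
    (.cons (fk k3)
    (.cons (fk k4)
    (.cons (fk k5)
    (.cons (fk k6)
    (.cons (fk k7)
    (.cons (fk k8)
    (.cons (fk k9)
    (.cons (fk k10)
    (.cons (fk k11)
    (.cons (fk k12)
    (.cons (fk k13)
    (.cons (fk k14)
    (.cons (fk k15)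
    (.cons (fk k16)
    (.cons (fk k17)
    (.cons (fk k18)
    (.cons (fk k19)
    (.cons (fk k20)
    (.cons (fk k21)
    (.cons (fk k22)
    (.cons (fk k23)
    (.cons (fk k24)
    (.cons (fk k25)
    (.cons (fk k26)
    (.cons (fk k27)
    (.cons (fk k28)
    (.cons (fk k29)
    (.cons (fk k30)
    (.cons (fk k31)
    (.cons (fk k32)
    (.cons (fk k33)
    (.cons (fk k34)
    (.cons (fk k35)
    (.cons (fk k36)
    (.cons (fk k37)
    (.cons (fk k38)
    (.cons (fk k39)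
    (.cons (fk k40)
    (.cons (fk k41)
    (.cons (fk k42)
    (.cons (fk k43)
    (.cons (fk k44)
    (.cons (fk k45)
    (.cons (fk k46)
    (.cons (fk k47)
    (.cons (fk k48)
    (.cons (fk k49)
    (.cons (fk k50)
    (.cons (fk k51) .nil)))))))))))))))))))))))))))))))))))))))))))))))))))))

theorem length_VL : VL.length = 10296 := forall_keys.length_eq.trans length_keys

theorem VL_ne {t : Cfsg.Spor.J4} (ht : t ∈ VL) : t ≠ 1 := by
  rintro rfl
  obtain ⟨a, ha, h1⟩ : ∃ a ∈ KL.flatten, HK 1 a := by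
    have h := forall_keys
    generalize KL.flatten = K at h
    generalize VL = V at h ht
    induction h with
    | nil => exact absurd ht List.not_mem_nil
    | @cons g a V K h1 _ ih =>
      rcases List.mem_cons.1 ht with h2 | h2
      · rw [← h2] at h1
        exact ⟨a, List.mem_cons_self, h1⟩
      · obtain ⟨b, hb, h3⟩ := ih h2
        exact ⟨b, List.mem_cons_of_mem _ hb, h3⟩
  have h2 : HK 1 (key 12159 24 (F2Mat.one 112)) := ⟨F2Mat.one 112, by rw [map_one]; exact Codes.one 112, rfl⟩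
  rw [h1.unique h2] at ha
  exact (List.nodup_cons.1 nodup_keys).1 ha

theorem VL_TY {t : Cfsg.Spor.J4} (ht : t ∈ VL) : TY t := by
  obtain ⟨l, hl, h1⟩ := List.mem_flatten.1 ht
  obtain ⟨p, -, rfl⟩ := List.mem_map.1 hl
  exact (vis_TY p t h1).resolve_left (VL_ne ht)

theorem nodup_VL : VL.Nodup :=
  nodup_of_keys (R := HK) (fun _ _ _ h1 h2 => h1.unique h2) forall_keys (List.nodup_cons.1 nodup_keys).2

/-- **The list is complete.** -/
theorem mem_VL [Finite Cfsg.Spor.J4] (hcard : Nat.card {t // TY t} ≤ 10296) {t : Cfsg.Spor.J4} (ht : TY t) :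
    t ∈ VL := mem_of_card (fun _ => VL_TY) nodup_VL (by rw [length_VL]; exact hcard) ht

/-- a property of the elements of all pieces is a property of all involutions inverting `y0` -/
theorem T_forall [Finite Cfsg.Spor.J4] (hcard : Nat.card {t // TY t} ≤ 10296) {P : Cfsg.Spor.J4 → Prop}
    (h : ∀ p ∈ PL, ∀ t ∈ p.vis CJ TJ, P t) {t : Cfsg.Spor.J4} (ht : TY t) : P t := by
  obtain ⟨l, hl, h1⟩ := List.mem_flatten.1 (mem_VL hcard ht)
  obtain ⟨p, hp, rfl⟩ := List.mem_map.1 hl
  exact h p hp t h1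

/-- the involutions inverting `y0` are determined by their keys -/
theorem key_inj [Finite Cfsg.Spor.J4] (hcard : Nat.card {t // TY t} ≤ 10296) {t t' : Cfsg.Spor.J4}
    (ht : TY t) (ht' : TY t') {a : ℕ} (h : HK t a) (h' : HK t' a) : t = t' :=
  eq_of_keys (R := HK) (fun _ _ _ h1 h2 => h1.unique h2) forall_keys (List.nodup_cons.1 nodup_keys).2 (mem_VL hcard ht)
    (mem_VL hcard ht') h h'

end Cfsg.Agent.H111.JM.TList
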