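import Cfsg.Agent.H111.JM.Psl7
import Cfsg.Agent.H2.UniqCUThree
import Cfsg.Agent.H393.SpTool
import Cfsg.Agent.S0283

/-!
# Generators of `PSU₃(3)` (helper111, S5580)

`f, y, t` generate a subgroup `PSL₂(7)`, `z` is an element of order 3 commuting with `y` and `t`.
-/

set_option autoImplicit false

open Cfsg

namespace Cfsg.Agent.H111.JM.U33Gens

open Matrix
open Cfsg.Agent.H111.JM.Psl7 (Tri)
open Cfsg.Agent.Classification.RTwo.UThreeThree (K9 IsGood card_k9 psuEquiv)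

/-! ### A nonabelian 3-group -/

section three

variable {G : Type*} [Group G] [Finite G]

/-- two elements generating a nonabelian group of order 27 -/
theorem dvd27 {H : Subgroup G} {a b c : G} (ha : a ∈ H) (hb : b ∈ H) (hc : c ∈ H) (a3 : a ^ 3 = 1)
    (b3 : b ^ 3 = 1) (c3 : c ^ 3 = 1) (c1 : c ≠ 1) (ac : a * c = c * a) (bc : b * c = c * b)
    (hab : a * b = c * (b * a)) : 27 ∣ Nat.card H := by
  have hp : Fact (Nat.Prime 3) := ⟨Nat.prime_three⟩
  have hz : ∀ x : G, x ^ 3 = 1 → IsPGroup 3 (Subgroup.zpowers x) := by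
    rintro x hx ⟨g, hg⟩
    obtain ⟨k, rfl⟩ := Subgroup.mem_zpowers_iff.1 hg
    refine ⟨1, Subtype.ext ?_⟩
    show (x ^ k) ^ 3 ^ 1 = 1
    rw [pow_one, ← zpow_natCast, ← _root_.zpow_mul, mul_comm, _root_.zpow_mul, zpow_natCast, hx, _root_.one_zpow]
  have h1 : IsPGroup 3 (Subgroup.zpowers a ⊔ Subgroup.zpowers c : Subgroup G) := by
    refine IsPGroup.to_sup_of_normal_right' (hz a a3) (hz c c3) ?_
    rw [Subgroup.zpowers_le, Subgroup.mem_normalizer_iff]
    intro h
    have key : ∀ x ∈ Subgroup.zpowers c, a * x * a⁻¹ = x := by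
      intro x hx
      obtain ⟨k, rfl⟩ := Subgroup.mem_zpowers_iff.1 hx
      have : Commute a (c ^ k) := (show Commute a c from ac).zpow_right k
      rw [this.eq, mul_inv_cancel_right]
    constructor
    · intro hh; rw [key h hh]; exact hh
    · intro hh
      have h2 := key _ hh
      have h3 : a * h * a⁻¹ = h := by
        have h4 : a * (a * h * a⁻¹) * a⁻¹ = a * h * a⁻¹ := h2
        have h5 : a⁻¹ * (a * (a * h * a⁻¹) * a⁻¹) * a = a⁻¹ * (a * h * a⁻¹) * a := by rw [h4]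
        have h6 : a⁻¹ * (a * (a * h * a⁻¹) * a⁻¹) * a = a * h * a⁻¹ := by group
        have h7 : a⁻¹ * (a * h * a⁻¹) * a = h := by group
        rw [h6, h7] at h5
        exact h5
      rw [h3] at hh; exact hh
  set Q : Subgroup G := Subgroup.zpowers a ⊔ Subgroup.zpowers c with hQ
  have haQ : a ∈ Q := Subgroup.mem_sup_left (Subgroup.mem_zpowers a)
  have hcQ : c ∈ Q := Subgroup.mem_sup_right (Subgroup.mem_zpowers c)
  have hba : b * a * b⁻¹ = c⁻¹ * a := by
    rw [mul_inv_eq_iff_eq_mul, mul_assoc, hab, inv_mul_cancel_left]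
  have hbc : b * c * b⁻¹ = c := by rw [bc, mul_inv_cancel_right]
  have h2 : Subgroup.zpowers b ≤ Subgroup.normalizer (Q : Set G) := by
    rw [Subgroup.zpowers_le]
    have h3 : Q.map (MulAut.conj b).toMonoidHom ≤ Q := by
      rw [hQ, Subgroup.map_sup, MonoidHom.map_zpowers, MonoidHom.map_zpowers]
      refine sup_le ?_ ?_
      · rw [Subgroup.zpowers_le]
        show b * a * b⁻¹ ∈ Q
        rw [hba]
        exact Q.mul_mem (Q.inv_mem hcQ) haQ
      · rw [Subgroup.zpowers_le]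
        show b * c * b⁻¹ ∈ Q
        rw [hbc]
        exact hcQ
    have h4 : Q.map (MulAut.conj b).toMonoidHom = Q := by
      refine Subgroup.eq_of_le_of_card_ge h3 ?_
      exact (Nat.card_congr (Q.equivMapOfInjective (MulAut.conj b).toMonoidHom
        (MulAut.conj b).injective).toEquiv).le
    rw [Subgroup.mem_normalizer_iff]
    intro h
    constructor
    · intro hh
      exact h3 (Subgroup.mem_map_of_mem _ hh)
    · intro hh
      rw [← h4] at hh
      obtain ⟨x, hx, hx'⟩ := Subgroup.mem_map.1 hh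
      have : x = h := (MulAut.conj b).injective hx'
      rwa [← this]
  have h3 : IsPGroup 3 (Subgroup.zpowers b ⊔ Q : Subgroup G) := IsPGroup.to_sup_of_normal_right' (hz b b3) h1 h2
  set P : Subgroup G := Subgroup.zpowers b ⊔ Q with hP
  have hPH : P ≤ H := by
    rw [hP, hQ]
    refine sup_le (Subgroup.zpowers_le.2 hb) (sup_le (Subgroup.zpowers_le.2 ha) (Subgroup.zpowers_le.2 hc))
  obtain ⟨k, hk⟩ := IsPGroup.iff_card.1 h3
  have h4 : 3 ≤ k := by
    by_contra h
    have haP : a ∈ P := Subgroup.mem_sup_right haQ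
    have hbP : b ∈ P := Subgroup.mem_sup_left (Subgroup.mem_zpowers b)
    have comm : ∀ x y : P, x * y = y * x := by
      have hk' : k = 0 ∨ k = 1 ∨ k = 2 := by omega
      rcases hk' with rfl | rfl | rfl
      · rw [pow_zero, Nat.card_eq_one_iff_unique] at hk
        intro x y
        exact hk.1.elim _ _
      · have := isCyclic_of_prime_card (p := 3) (by rw [hk, pow_one])
        intro x y
        obtain ⟨g, hg⟩ := this.exists_generator
        obtain ⟨i, rfl⟩ := Subgroup.mem_zpowers_iff.1 (hg x)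
        obtain ⟨j, rfl⟩ := Subgroup.mem_zpowers_iff.1 (hg y)
        rw [← _root_.zpow_add, ← _root_.zpow_add, add_comm]
      · exact (IsPGroup.isMulCommutative_of_card_eq_prime_sq hk).1.1
    have h5 := congrArg Subtype.val (comm ⟨a, haP⟩ ⟨b, hbP⟩)
    have h6 : a * b = b * a := h5
    rw [h6] at hab
    exact c1 (mul_right_cancel (b := b * a) (by rw [← hab, one_mul]))
  have h5 : 27 ∣ Nat.card P := by
    rw [hk]
    exact pow_dvd_pow 3 h4
  exact h5.trans (Subgroup.card_dvd_of_le hPH)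

end three

/-! ### The matrices -/

/-- `f` -/
def mF : Matrix (Fin 3) (Fin 3) K9 :=
  !![⟨0, 0⟩, ⟨0, 0⟩, ⟨1, 0⟩; ⟨1, 1⟩, ⟨1, 1⟩, ⟨0, 0⟩; ⟨2, 1⟩, ⟨1, 2⟩, ⟨0, 0⟩]
/-- `y` -/
def mY : Matrix (Fin 3) (Fin 3) K9 :=
  !![⟨2, 0⟩, ⟨1, 2⟩, ⟨0, 2⟩; ⟨0, 2⟩, ⟨2, 2⟩, ⟨1, 0⟩; ⟨2, 2⟩, ⟨0, 0⟩, ⟨2, 1⟩]
/-- `t` -/
def mT : Matrix (Fin 3) (Fin 3) K9 :=
  !![⟨1, 0⟩, ⟨2, 1⟩, ⟨0, 1⟩; ⟨2, 2⟩, ⟨0, 0⟩, ⟨2, 1⟩; ⟨0, 2⟩, ⟨2, 2⟩, ⟨1, 0⟩]
/-- `z` -/
def mZ : Matrix (Fin 3) (Fin 3) K9 :=
  !![⟨1, 1⟩, ⟨0, 2⟩, ⟨0, 1⟩; ⟨0, 2⟩, ⟨1, 1⟩, ⟨0, 2⟩; ⟨0, 1⟩, ⟨0, 2⟩, ⟨1, 1⟩]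

theorem gF : IsGood mF := by decide +kernel
theorem gY : IsGood mY := by decide +kernel
theorem gT : IsGood mT := by decide +kernel
theorem gZ : IsGood mZ := by decide +kernel

/-- the group -/
abbrev UU := Cfsg.SU 3 K9 3

/-- the matrix of an element -/
def mt (x : UU) : Matrix (Fin 3) (Fin 3) K9 := (x : Matrix.SpecialLinearGroup (Fin 3) K9)

theorem mt_mul (x y : UU) : mt (x * y) = mt x * mt y := rfl
theorem mt_one : mt 1 = 1 := rfl
theorem mt_inj {x y : UU} (h : mt x = mt y) : x = y := Subtype.ext (Subtype.ext h)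
theorem mt_pow (x : UU) (n : ℕ) : mt (x ^ n) = mt x ^ n := by
  induction n with
  | zero => rw [pow_zero, pow_zero, mt_one]
  | succ n ih => rw [pow_succ, pow_succ, mt_mul, ih]

/-- `f` -/
def F : UU := gF.su
/-- `y` -/
def Y : UU := gY.su
/-- `t` -/
def T : UU := gT.su
/-- `z` -/
def Z : UU := gZ.su

theorem mtF : mt F = mF := rfl
theorem mtY : mt Y = mY := rfl
theorem mtT : mt T = mT := rfl
theorem mtZ : mt Z = mZ := rfl

theorem ne_of {x y : UU} {i j : Fin 3} (h : mt x i j ≠ mt y i j) : x ≠ y := fun e => h (by rw [e])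

theorem F7 : F ^ 7 = 1 := by
  apply mt_inj
  rw [mt_pow, mtF, mt_one]
  simp only [pow_succ, pow_zero, one_mul]
  decide +kernel

theorem Y3 : Y ^ 3 = 1 := by
  apply mt_inj
  rw [mt_pow, mtY, mt_one]
  simp only [pow_succ, pow_zero, one_mul]
  decide +kernel

theorem Z3 : Z ^ 3 = 1 := by
  apply mt_inj
  rw [mt_pow, mtZ, mt_one]
  simp only [pow_succ, pow_zero, one_mul]
  decide +kernel

theorem TT' : T * T = 1 := by
  apply mt_inj
  rw [mt_mul, mtT, mt_one]
  decide +kernel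

theorem F1 : F ≠ 1 := by
  apply ne_of (i := 0) (j := 0)
  rw [mtF, mt_one]
  decide +kernel

theorem Y1 : Y ≠ 1 := by
  apply ne_of (i := 0) (j := 0)
  rw [mtY, mt_one]
  decide +kernel

theorem Z1 : Z ≠ 1 := by
  apply ne_of (i := 0) (j := 0)
  rw [mtZ, mt_one]
  decide +kernel

theorem tri : Tri F Y T where
  f1 := F1
  f7 := F7
  yf := by
    rw [mul_inv_eq_iff_eq_mul]
    apply mt_inj
    rw [mt_mul, mt_mul, mt_pow, mtF, mtY, pow_two]
    decide +kernel
  y1 := Y1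
  y3 := Y3
  tt := TT'
  ty := by
    rw [mul_inv_eq_iff_eq_mul, eq_inv_mul_iff_mul_eq]
    apply mt_inj
    rw [mt_mul, mt_mul, mtT, mtY]
    decide +kernel
  ft := by
    apply mt_inj
    simp only [mt_mul, mtF, mtT, mt_one]
    decide +kernel

theorem ZY : Z * Y = Y * Z := by
  apply mt_inj
  rw [mt_mul, mt_mul, mtZ, mtY]
  decide +kernel

theorem ZT : Z * T = T * Z := by
  apply mt_inj
  rw [mt_mul, mt_mul, mtZ, mtT]
  decide +kernel

theorem FZ6 : (F * Z) ^ 6 = 1 := by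
  apply mt_inj
  rw [mt_pow, mt_mul, mtF, mtZ, mt_one]
  simp only [pow_succ, pow_zero, one_mul]
  decide +kernel

/-! ### Generation -/

/-- an element of order 8 -/
theorem ord8 : orderOf (F ^ 6 * Z) = 8 := by
  have hp : Fact (Nat.Prime 2) := ⟨Nat.prime_two⟩
  have h : orderOf (F ^ 6 * Z) = 2 ^ (2 + 1) := by
    apply orderOf_eq_prime_pow
    · intro h
      have h1 := congrArg mt h
      rw [mt_pow, mt_mul, mt_pow, mtF, mtZ, mt_one] at h1
      simp only [pow_succ, pow_zero, one_mul] at h1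
      exact absurd h1 (by decide +kernel)
    · apply mt_inj
      rw [mt_pow, mt_mul, mt_pow, mtF, mtZ, mt_one]
      simp only [pow_succ, pow_zero, one_mul]
      decide +kernel
  rw [h]; norm_num

/-- the elements of the nonabelian 3-group -/
def A : UU := F ^ 6 * Y ^ 2
/-- the elements of the nonabelian 3-group -/
def B : UU := Y ^ 2 * F * Z ^ 2 * F * Z ^ 2
/-- the elements of the nonabelian 3-group -/
def C : UU := A * B * A ^ 2 * B ^ 2

/-- packed `A` -/
def mA : Matrix (Fin 3) (Fin 3) K9 := mF * mF * mF * mF * mF * mF * (mY * mY)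
/-- packed `B` -/
def mB : Matrix (Fin 3) (Fin 3) K9 := mY * mY * mF * (mZ * mZ) * mF * (mZ * mZ)
/-- packed `C` -/
def mC : Matrix (Fin 3) (Fin 3) K9 := mA * mB * (mA * mA) * (mB * mB)

theorem mtA : mt A = mA := by
  unfold A mA
  rw [mt_mul, mt_pow, mt_pow, mtF, mtY]
  simp only [pow_succ, pow_zero, one_mul]
theorem mtB : mt B = mB := by
  unfold B mB
  simp only [mt_mul, mtF, mtY, mtZ, pow_succ, pow_zero, one_mul]
theorem mtC : mt C = mC := by
  unfold C mC
  simp only [mt_mul, mtA, mtB, pow_succ, pow_zero, one_mul]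

theorem A3 : A ^ 3 = 1 := by
  apply mt_inj
  rw [mt_pow, mtA, mt_one]
  simp only [pow_succ, pow_zero, one_mul]
  decide +kernel
theorem B3 : B ^ 3 = 1 := by
  apply mt_inj
  rw [mt_pow, mtB, mt_one]
  simp only [pow_succ, pow_zero, one_mul]
  decide +kernel
theorem C3 : C ^ 3 = 1 := by
  apply mt_inj
  rw [mt_pow, mtC, mt_one]
  simp only [pow_succ, pow_zero, one_mul]
  decide +kernel
theorem AC : A * C = C * A := by
  apply mt_inj
  rw [mt_mul, mt_mul, mtA, mtC]
  decide +kernel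
theorem BC : B * C = C * B := by
  apply mt_inj
  rw [mt_mul, mt_mul, mtB, mtC]
  decide +kernel
theorem AB : A * B = C * (B * A) := by
  apply mt_inj
  rw [mt_mul, mt_mul, mt_mul, mtA, mtB, mtC]
  decide +kernel
theorem AB' : A * B ≠ B * A := by
  intro h
  have h1 := congrArg mt h
  rw [mt_mul, mt_mul, mtA, mtB] at h1
  exact absurd h1 (by decide +kernel)

theorem C1 : C ≠ 1 := by
  intro h
  have h1 := AB
  rw [h, one_mul] at h1
  exact AB' h1

theorem card_UU : Nat.card UU = 6048 := Cfsg.Agent.H2.UniqCUThree.card_su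

theorem simple_UU : IsSimpleGroup UU := by
  have hs : IsSimpleGroup (Cfsg.PSU 3 K9 3) :=
    S0283.result (F := K9) (q := 3) (by rw [card_k9]; norm_num) 3 le_rfl (by norm_num)
  exact (MulEquiv.isSimpleGroup_congr (psuEquiv card_k9)).1 hs

/-- **generation** -/
theorem gens : Subgroup.closure {F, Y, T, Z} = ⊤ := by
  have hfin : Finite UU := Nat.finite_of_card_ne_zero (by rw [card_UU]; norm_num)
  have hs := simple_UU
  set H : Subgroup UU := Subgroup.closure {F, Y, T, Z} with hH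
  have hF : F ∈ H := Subgroup.subset_closure (by simp)
  have hY : Y ∈ H := Subgroup.subset_closure (by simp)
  have hZ : Z ∈ H := Subgroup.subset_closure (by simp)
  have h7 : 7 ∣ Nat.card H := by
    have h1 : orderOf (⟨F, hF⟩ : H) = 7 := by
      have hp : Fact (Nat.Prime 7) := ⟨by norm_num⟩
      exact orderOf_eq_prime (Subtype.ext F7) (fun h => F1 (congrArg Subtype.val h))
    rw [← h1]; exact orderOf_dvd_natCard _
  have h8 : 8 ∣ Nat.card H := by
    have hw : F ^ 6 * Z ∈ H := H.mul_mem (H.pow_mem hF 6) hZ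
    have h1 : orderOf (⟨F ^ 6 * Z, hw⟩ : H) = 8 := by rw [Subgroup.orderOf_mk]; exact ord8
    rw [← h1]; exact orderOf_dvd_natCard _
  have hA : A ∈ H := H.mul_mem (H.pow_mem hF 6) (H.pow_mem hY 2)
  have hB : B ∈ H := H.mul_mem (H.mul_mem (H.mul_mem (H.mul_mem (H.pow_mem hY 2) hF) (H.pow_mem hZ 2)) hF)
    (H.pow_mem hZ 2)
  have hC : C ∈ H := H.mul_mem (H.mul_mem (H.mul_mem hA hB) (H.pow_mem hA 2)) (H.pow_mem hB 2)
  have h27 : 27 ∣ Nat.card H := dvd27 hA hB hC A3 B3 C3 C1 AC BC AB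
  have h1512 : 1512 ∣ Nat.card H := by
    have h1 : 7 * 8 ∣ Nat.card H := Nat.Coprime.mul_dvd_of_dvd_of_dvd (by norm_num) h7 h8
    exact Nat.Coprime.mul_dvd_of_dvd_of_dvd (m := 7 * 8) (n := 27) (by norm_num) h1 h27
  by_contra hne
  have h1 := Cfsg.Agent.H393.Sp.card_dvd_factorial hne
  have h2 := H.card_mul_index
  rw [card_UU] at h1 h2
  obtain ⟨k, hk⟩ := h1512
  rw [hk] at h2
  have h3 : k * H.index = 4 := by
    have : 1512 * (k * H.index) = 1512 * 4 := by rw [← mul_assoc, h2]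
    exact Nat.eq_of_mul_eq_mul_left (by norm_num) this
  have h4 : H.index ≤ 4 := Nat.le_of_dvd (by norm_num) (Dvd.intro_left k h3)
  have h5 := Nat.le_of_dvd (Nat.factorial_pos _) h1
  have h6 : H.index.factorial ≤ (4 : ℕ).factorial := Nat.factorial_le h4
  have h7 : (4 : ℕ).factorial = 24 := rfl
  omega

/-- **generators of a group isomorphic to `PSU₃(3)`** -/
theorem exists_gens {S : Type*} [Group S] {F' : Type*} [Field F'] [Fintype F'] (h : Fintype.card F' = 9)
    (e : S ≃* Cfsg.PSU 3 F' 3) : ∃ f y t z : S, Tri f y t ∧ z ^ 3 = 1 ∧ z ≠ 1 ∧ z * y = y * z ∧ z * t = t * z ∧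
      (f * z) ^ 6 = 1 ∧ Subgroup.closure {f, y, t, z} = ⊤ := by
  have hcard : Fintype.card F' = Fintype.card K9 := by rw [h, card_k9]
  let e1 : Cfsg.PSU 3 F' 3 ≃* UU := (psuEquiv h).trans
    (LieClassical.FieldTransfer.suCongr 3 3 (FiniteField.ringEquivOfCardEq hcard))
  let E : UU ≃* S := (e.trans e1).symm
  refine ⟨E F, E Y, E T, E Z, tri.map E.toMonoidHom E.injective, ?_, ?_, ?_, ?_, ?_, ?_⟩
  · rw [← map_pow, Z3, map_one]
  · rw [Ne, map_eq_one_iff E E.injective]; exact Z1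
  · rw [← map_mul, ZY, map_mul]
  · rw [← map_mul, ZT, map_mul]
  · rw [← map_mul, ← map_pow, FZ6, map_one]
  · have h8 : Subgroup.closure {E F, E Y, E T, E Z} = (Subgroup.closure {F, Y, T, Z}).map E.toMonoidHom := by
      rw [MonoidHom.map_closure]
      congr 1
      ext x
      simp [eq_comm]
    rw [h8, gens, Subgroup.map_top_of_surjective _ E.surjective]

end Cfsg.Agent.H111.JM.U33Gens
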